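import Cfsg.Agent.Lib.F4P.Part7
import Cfsg.Agent.Lib.F4W
import Cfsg.Agent.Lib.F4LeviD

/-!
# The prime graph of `F₄(2ⁿ)`
-/

set_option autoImplicit false
set_option linter.unusedSectionVars false
set_option linter.unusedVariables false
set_option linter.unusedSimpArgs false
set_option maxRecDepth 100000

namespace Cfsg.Agent.Lib.F4P

open Cfsg Cfsg.Lie Cfsg.Agent.Lib.Chev Matrix Cfsg.Agent.Lib.ChevFix Cfsg.Agent.Lib.TwTor32 Cfsg.Agent.Lib.Syl54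
open Cfsg.Agent.Lib.Syl54.TF4 (hFX)

theorem W_checks : WChecks where
  w_pair := fun ρ hρ => Cfsg.Agent.Lib.F4W.w_pair hρ
  w_ord2 := fun y hy h2 h1 => Cfsg.Agent.Lib.F4W.w_ord2 hy h2 h1
  w_ord3 := fun y hy h3 h1 => Cfsg.Agent.Lib.F4W.w_ord3 hy h3 h1
  w_det := fun ρ hρ hA α => Cfsg.Agent.Lib.F4W.w_det hρ hA α
  w_minor := fun ρ hρ hA α p hp hp2 => Cfsg.Agent.Lib.F4W.w_minor hρ hA α p hp hp2

theorem levi_stmt (F : Type*) [Field F] [Fintype F] : LeviStmt F :=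
  fun s _ hsp hsq hs => Cfsg.Agent.Lib.F4LeviD.exists_levi_elt hFX s hsp hsq hs

end Cfsg.Agent.Lib.F4P
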