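import Cfsg.Agent.Lib.F4P.Tools

/-!
# The prime graph of `F₄(2ⁿ)`: non-adjacency
-/

set_option autoImplicit false
set_option linter.unusedSectionVars false
set_option linter.unusedVariables false
set_option linter.unusedSimpArgs false
set_option maxRecDepth 100000

namespace Cfsg.Agent.Lib.F4P

open Cfsg Cfsg.Lie Cfsg.Agent.Lib.Chev Matrix Cfsg.Agent.Lib.ChevFix Cfsg.Agent.Lib.TwTor32 Cfsg.Agent.Lib.Syl54
open Cfsg.Agent.Lib.N65
open Cfsg.Agent.Lib.Syl54.TF4 (hFX)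
open Polynomial (cyclotomic aeval X C)

/-- The finite checks on the Weyl group. -/
structure WChecks : Prop where
  w_pair : ∀ ρ ∈ hFX.Wk Set.univ, ¬ ((mat hFX ρ).trace = -1 ∧ (mat hFX ρ) ^ 4 + (mat hFX ρ) ^ 3 + 2 • (mat hFX ρ) ^ 2 + (mat hFX ρ) + 1 = 0) ∧
    ¬ ((mat hFX ρ).trace = 0 ∧ (mat hFX ρ) ^ 4 + (mat hFX ρ) ^ 2 + 1 = 0) ∧
    ¬ ((mat hFX ρ).trace = 1 ∧ (mat hFX ρ) ^ 4 - (mat hFX ρ) ^ 3 + 2 • (mat hFX ρ) ^ 2 - (mat hFX ρ) + 1 = 0)
  w_ord2 : ∀ y ∈ hFX.Wk Set.univ, y ^ 2 = 1 → y ≠ 1 → ∃ α : Fin chevF4.nroots, ∀ j, rcV RootF4T.R chevF4 (y α) j = - rcV RootF4T.R chevF4 α j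
  w_ord3 : ∀ y ∈ hFX.Wk Set.univ, y ^ 3 = 1 → y ≠ 1 → ∃ α : Fin chevF4.nroots, ∀ j,
    rcV RootF4T.R chevF4 α j + rcV RootF4T.R chevF4 (y α) j + rcV RootF4T.R chevF4 (y (y α)) j = 0
  w_det : ∀ ρ ∈ hFX.Wk Set.univ, ((mat hFX ρ) ^ 4 + 1 = 0 ∨ (mat hFX ρ) ^ 4 - (mat hFX ρ) ^ 2 + 1 = 0) → ∀ α : Fin chevF4.nroots,
    (Matrix.of fun (i j : Fin chevF4.rank) => (((mat hFX ρ) ^ (i : ℕ)) *ᵥ rcV RootF4T.R chevF4 α) j).det ∣ 8
  w_minor : ∀ ρ ∈ hFX.Wk Set.univ, ((mat hFX ρ) ^ 2 + (mat hFX ρ) + 1 = 0 ∨ (mat hFX ρ) ^ 2 + 1 = 0 ∨ (mat hFX ρ) ^ 2 - (mat hFX ρ) + 1 = 0) →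
    ∀ (α : Fin chevF4.nroots) (p : ℕ), p.Prime → p ≠ 2 → ∃ i j : Fin chevF4.rank,
      ¬ (p : ℤ) ∣ (rcV RootF4T.R chevF4 α i * ((mat hFX ρ) *ᵥ rcV RootF4T.R chevF4 α) j - rcV RootF4T.R chevF4 α j * ((mat hFX ρ) *ᵥ rcV RootF4T.R chevF4 α) i)

theorem natDegree_charpoly (A : Matrix (Fin chevF4.rank) (Fin chevF4.rank) ℤ) : A.charpoly.natDegree = 4 := by
  rw [Matrix.charpoly_natDegree_eq_dim]
  rfl

theorem cyc3 : cyclotomic 3 ℤ = X ^ 2 + X + 1 := by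
  haveI : Fact (Nat.Prime 3) := ⟨by norm_num⟩
  rw [Polynomial.cyclotomic_prime]
  simp [Finset.sum_range_succ]
  ring

theorem cyc4 : cyclotomic 4 ℤ = X ^ 2 + 1 := by
  have h := Polynomial.cyclotomic_prime_pow_eq_geom_sum (R := ℤ) (n := 1) Nat.prime_two
  norm_num [Finset.sum_range_succ] at h
  rw [h, add_comm]

theorem cyc8 : cyclotomic 8 ℤ = X ^ 4 + 1 := by
  have h := Polynomial.cyclotomic_prime_pow_eq_geom_sum (R := ℤ) (n := 2) Nat.prime_two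
  norm_num [Finset.sum_range_succ] at h
  rw [h, add_comm]

theorem cyc6 : cyclotomic 6 ℤ = X ^ 2 - X + 1 := by
  have h := Polynomial.cyclotomic_expand_eq_cyclotomic_mul (R := ℤ) (n := 3) Nat.prime_two (by norm_num)
  have h2 : Polynomial.expand ℤ 2 (cyclotomic 3 ℤ) = (X ^ 2 - X + 1) * (cyclotomic 3 ℤ) := by
    rw [cyc3]
    simp only [map_add, map_pow, Polynomial.expand_X, map_one]
    ring
  rw [h2] at h
  exact (mul_right_cancel₀ (Polynomial.cyclotomic_ne_zero _ _) h).symm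

theorem cyc12 : cyclotomic 12 ℤ = X ^ 4 - X ^ 2 + 1 := by
  have h := Polynomial.cyclotomic_expand_eq_cyclotomic (R := ℤ) (n := 6) Nat.prime_two (by norm_num)
  have e : (6 * 2 : ℕ) = 12 := rfl
  rw [e] at h
  rw [← h, cyc6]
  simp only [map_add, map_sub, map_pow, Polynomial.expand_X, map_one]
  ring

theorem lin_step {l r : ℕ} {A : Matrix (Fin l) (Fin l) ℤ} {u : ZMod r} {a : Fin l → ZMod r} (ha : a ∈ Eg r A u) (v : Fin l → ℤ) :
    a ⬝ᵥ (fun j => (((A *ᵥ v) j : ℤ) : ZMod r)) = u * a ⬝ᵥ (fun j => ((v j : ℤ) : ZMod r)) := by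
  have h1 := mem_Eg.1 ha
  have e : (fun j => (((A *ᵥ v) j : ℤ) : ZMod r)) = (A.map (Int.castRingHom (ZMod r))) *ᵥ (fun j => ((v j : ℤ) : ZMod r)) := by
    funext j
    have h2 := RingHom.map_mulVec (Int.castRingHom (ZMod r)) A v j
    exact h2
  rw [e, Matrix.dotProduct_mulVec]
  have e2 : a ᵥ* (A.map (Int.castRingHom (ZMod r))) = u • a := by
    rw [← h1, ← Matrix.mulVec_transpose]
    rfl
  rw [e2, smul_dotProduct, smul_eq_mul]

theorem lin_pow {l r : ℕ} {A : Matrix (Fin l) (Fin l) ℤ} {u : ZMod r} {a : Fin l → ZMod r} (ha : a ∈ Eg r A u) (i : ℕ) (v : Fin l → ℤ) :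
    a ⬝ᵥ (fun j => ((((A ^ i) *ᵥ v) j : ℤ) : ZMod r)) = u ^ i * a ⬝ᵥ (fun j => ((v j : ℤ) : ZMod r)) := by
  induction i generalizing v with
  | zero => simp
  | succ i ih =>
    rw [pow_succ, ← Matrix.mulVec_mulVec, ih, lin_step ha, pow_succ]
    ring

theorem eq_zero_of_all {l r : ℕ} {a : Fin l → ZMod r} (h : ∀ v : Fin l → ℤ, a ⬝ᵥ (fun j => ((v j : ℤ) : ZMod r)) = 0) : a = 0 := by
  classical
  funext i
  have h1 := h (Pi.single i 1)
  have e : (fun j => (((Pi.single i (1 : ℤ) : Fin l → ℤ) j : ℤ) : ZMod r)) = Pi.single i 1 := by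
    funext j
    by_cases hj : j = i
    · subst hj
      simp
    · simp [Pi.single_eq_of_ne hj]
  rw [e, dotProduct_single, mul_one] at h1
  exact h1

/-- Eigenvectors with eigenvalue of order `8` or `12` do not vanish on roots. -/
theorem regular_eig (W : WChecks) {ρ : Equiv.Perm (Fin chevF4.nroots)} (hρ : ρ ∈ hFX.Wk Set.univ) {s : ℕ} [Fact s.Prime] (hs : s ≠ 2)
    {u : ZMod s} {a : Fin chevF4.rank → ZMod s} (ha0 : a ≠ 0) (ha : a ∈ Eg s (mat hFX ρ) u)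
    (hA : (mat hFX ρ) ^ 4 + 1 = 0 ∨ (mat hFX ρ) ^ 4 - (mat hFX ρ) ^ 2 + 1 = 0) (α : Fin chevF4.nroots) :
    a ⬝ᵥ (fun j => ((rcV RootF4T.R chevF4 α j : ℤ) : ZMod s)) ≠ 0 := by
  classical
  intro h0
  have hsp : s.Prime := Fact.out
  set M : Matrix (Fin chevF4.rank) (Fin chevF4.rank) ℤ := Matrix.of fun (i j : Fin chevF4.rank) => (((mat hFX ρ) ^ (i : ℕ)) *ᵥ rcV RootF4T.R chevF4 α) j with hM
  have hdet := W.w_det ρ hρ hA α
  rw [← hM] at hdet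
  have hcast : ((M.det : ℤ) : ZMod s) ≠ 0 := by
    intro h1
    have h2 : (s : ℤ) ∣ M.det := (ZMod.intCast_zmod_eq_zero_iff_dvd _ _).1 h1
    have h3 : (s : ℤ) ∣ 8 := h2.trans hdet
    have h4 : s ∣ 8 := by exact_mod_cast h3
    have h5 : s ∣ 2 ^ 3 := by simpa using h4
    have h6 := hsp.dvd_of_dvd_pow h5
    exact hs ((Nat.prime_dvd_prime_iff_eq hsp Nat.prime_two).1 h6)
  have hdetM : (M.map (Int.castRingHom (ZMod s))).det ≠ 0 := by
    have := RingHom.map_det (Int.castRingHom (ZMod s)) M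
    rw [RingHom.mapMatrix_apply] at this
    rw [← this]
    exact hcast
  apply ha0
  apply Matrix.eq_zero_of_mulVec_eq_zero hdetM
  funext i
  have h1 := lin_pow ha (i : ℕ) (rcV RootF4T.R chevF4 α)
  rw [h0, mul_zero] at h1
  rw [Pi.zero_apply, ← h1]
  simp only [Matrix.mulVec, dotProduct]
  apply Finset.sum_congr rfl
  intro j _
  rw [mul_comm]
  rfl

theorem hs1152 {p : ℕ} (hp : p.Prime) (h2 : p ≠ 2) (h3 : p ≠ 3) : ¬ p ∣ ([2, 6, 8, 12] : List ℕ).prod := by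
  intro h
  have e : ([2, 6, 8, 12] : List ℕ).prod = 2 ^ 7 * 3 ^ 2 := by norm_num
  rw [e] at h
  rcases hp.dvd_mul.1 h with h4 | h4
  · exact h2 ((Nat.prime_dvd_prime_iff_eq hp Nat.prime_two).1 (hp.dvd_of_dvd_pow h4))
  · exact h3 ((Nat.prime_dvd_prime_iff_eq hp Nat.prime_three).1 (hp.dvd_of_dvd_pow h4))

/-- The stabilizer of a vector on which no root vanishes is trivial. -/
theorem stab_trivial' (W : WChecks) {s : ℕ} [Fact s.Prime] (hs2 : s ≠ 2) (hs3 : s ≠ 3) {a : Fin chevF4.rank → ZMod s}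
    (hreg : ∀ α : Fin chevF4.nroots, a ⬝ᵥ (fun j => ((rcV RootF4T.R chevF4 α j : ℤ) : ZMod s)) ≠ 0)
    {y : Equiv.Perm (Fin chevF4.nroots)} (hy : y ∈ hFX.Wk Set.univ)
    (hfix : ∀ α : Fin chevF4.nroots, a ⬝ᵥ (fun j => ((rcV RootF4T.R chevF4 (y α) j : ℤ) : ZMod s)) = a ⬝ᵥ (fun j => ((rcV RootF4T.R chevF4 α j : ℤ) : ZMod s))) :
    y = 1 := by
  classical
  by_contra hne
  have hsp : s.Prime := Fact.out
  have hfixk : ∀ (k : ℕ) (α : Fin chevF4.nroots), a ⬝ᵥ (fun j => ((rcV RootF4T.R chevF4 ((y ^ k) α) j : ℤ) : ZMod s)) = a ⬝ᵥ (fun j => ((rcV RootF4T.R chevF4 α j : ℤ) : ZMod s)) := by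
    intro k
    induction k with
    | zero => intro α; rfl
    | succ k ih =>
      intro α
      rw [pow_succ', Equiv.Perm.mul_apply, hfix, ih]
  have hN : orderOf y ∣ 2 ^ 7 * 3 ^ 2 := by
    have h1 : orderOf (⟨y, hy⟩ : ↥(hFX.Wk Set.univ)) ∣ Nat.card ↥(hFX.Wk Set.univ) := orderOf_dvd_natCard _
    rw [Subgroup.orderOf_mk, TF4.card_Wk] at h1
    simpa using h1
  have hN1 : orderOf y ≠ 1 := fun h => hne (orderOf_eq_one_iff.1 h)
  obtain ⟨p, hp, hpd⟩ := Nat.exists_prime_and_dvd hN1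
  have hp23 : p = 2 ∨ p = 3 := by
    rcases hp.dvd_mul.1 (hpd.trans hN) with h4 | h4
    · exact Or.inl ((Nat.prime_dvd_prime_iff_eq hp Nat.prime_two).1 (hp.dvd_of_dvd_pow h4))
    · exact Or.inr ((Nat.prime_dvd_prime_iff_eq hp Nat.prime_three).1 (hp.dvd_of_dvd_pow h4))
  set y' := y ^ (orderOf y / p) with hy'
  have hy'p : y' ^ p = 1 := by
    rw [hy', ← pow_mul, Nat.div_mul_cancel hpd, pow_orderOf_eq_one]
  have hy'ne : y' ≠ 1 := by
    intro h0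
    have h1 := orderOf_dvd_of_pow_eq_one h0
    have h2 : 0 < orderOf y := orderOf_pos y
    have h3 := Nat.le_of_dvd (Nat.div_pos (Nat.le_of_dvd h2 hpd) hp.pos) h1
    have h4 := Nat.div_lt_self h2 hp.one_lt
    omega
  have hy'W : y' ∈ hFX.Wk Set.univ := pow_mem hy _
  have hdot : ∀ (v w : Fin chevF4.rank → ℤ), (∀ j, v j = w j) → a ⬝ᵥ (fun j => ((v j : ℤ) : ZMod s)) = a ⬝ᵥ (fun j => ((w j : ℤ) : ZMod s)) := by
    intro v w h
    congr 1
    funext j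
    rw [h j]
  rcases hp23 with rfl | rfl
  · obtain ⟨α, hα⟩ := W.w_ord2 y' hy'W hy'p hy'ne
    have h1 := hfixk (orderOf y / 2) α
    rw [← hy'] at h1
    have h2 := hdot (rcV RootF4T.R chevF4 (y' α)) (fun j => - rcV RootF4T.R chevF4 α j) hα
    rw [h1] at h2
    have h3 : a ⬝ᵥ (fun j => ((- rcV RootF4T.R chevF4 α j : ℤ) : ZMod s)) = - (a ⬝ᵥ (fun j => ((rcV RootF4T.R chevF4 α j : ℤ) : ZMod s))) := by
      simp [dotProduct, Finset.sum_neg_distrib]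
    rw [h3] at h2
    have h4 : (2 : ZMod s) * a ⬝ᵥ (fun j => ((rcV RootF4T.R chevF4 α j : ℤ) : ZMod s)) = 0 := by
      linear_combination h2
    rcases mul_eq_zero.1 h4 with h5 | h5
    · have h6 : ((2 : ℕ) : ZMod s) = 0 := by exact_mod_cast h5
      have h7 := (ZMod.natCast_eq_zero_iff _ _).1 h6
      exact hs2 ((Nat.prime_dvd_prime_iff_eq hsp Nat.prime_two).1 h7)
    · exact hreg α h5
  · obtain ⟨α, hα⟩ := W.w_ord3 y' hy'W hy'p hy'ne
    have h1 := hfixk (orderOf y / 3) α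
    rw [← hy'] at h1
    have h1' := hfixk (orderOf y / 3) (y' α)
    rw [← hy', h1] at h1'
    have h3 : a ⬝ᵥ (fun j => ((rcV RootF4T.R chevF4 α j : ℤ) : ZMod s)) + a ⬝ᵥ (fun j => ((rcV RootF4T.R chevF4 (y' α) j : ℤ) : ZMod s)) +
        a ⬝ᵥ (fun j => ((rcV RootF4T.R chevF4 (y' (y' α)) j : ℤ) : ZMod s)) = 0 := by
      simp only [dotProduct, ← Finset.sum_add_distrib]
      apply Finset.sum_eq_zero
      intro j _
      have h4 : ((rcV RootF4T.R chevF4 α j : ℤ) : ZMod s) + ((rcV RootF4T.R chevF4 (y' α) j : ℤ) : ZMod s) + ((rcV RootF4T.R chevF4 (y' (y' α)) j : ℤ) : ZMod s) = 0 := by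
        have := congrArg (fun z : ℤ => (z : ZMod s)) (hα j)
        simpa using this
      linear_combination (a j) * h4
    rw [h1', h1] at h3
    have h4 : (3 : ZMod s) * a ⬝ᵥ (fun j => ((rcV RootF4T.R chevF4 α j : ℤ) : ZMod s)) = 0 := by
      linear_combination h3
    rcases mul_eq_zero.1 h4 with h5 | h5
    · have h6 : ((3 : ℕ) : ZMod s) = 0 := by exact_mod_cast h5
      have h7 := (ZMod.natCast_eq_zero_iff _ _).1 h6
      exact hs3 ((Nat.prime_dvd_prime_iff_eq hsp Nat.prime_three).1 h7)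
    · exact hreg α h5

section Ext

variable {F K : Type*} [Field F] [Fintype F] [Field K] [Fintype K]

theorem idx_not_dvd {p : ℕ} [Fact p.Prime] (h : ¬ p ∣ ([2, 6, 8, 12] : List ℕ).prod) (hpQ : p ∣ Fintype.card K - 1) :
    ¬ p ∣ ((chevF4.diagonalSubgroup K).subgroupOf (chevF4.group K)).index := by
  have hK1 : 1 < Fintype.card K := Fintype.one_lt_card
  have hle : chevF4.diagonalSubgroup K ≤ chevF4.group K :=
    fun x hx => hFX.c.monomial_le_group (hFX.c.diagonal_le_monomial hx)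
  have hL : 1 * Nat.card ↥(chevF4.group K) =
      Fintype.card K ^ 24 * (([2, 6, 8, 12] : List ℕ).map (fun e => Fintype.card K ^ e - 1)).prod := TF4.hGen (K := K)
  have hH : 1 * Nat.card ↥(chevF4.diagonalSubgroup K) =
      (Fintype.card K - 1) ^ ([2, 6, 8, 12] : List ℕ).length := Full.torus_card_F4 (F := K) hFX
  exact index_not_dvd (Q := Fintype.card K) (g := 1) (N := 24) (r := p) (chevF4.diagonalSubgroup K) (chevF4.group K) hle
    [2, 6, 8, 12] (by omega) hpQ hK1 h one_pos hL hH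

/-- A cyclotomic factor of the characteristic polynomial. -/
theorem cyclo_dvd' {r : ℕ} [Fact r.Prime] {ρ : Equiv.Perm (Fin chevF4.nroots)} (hρ : ρ ∈ hFX.Wk Set.univ)
    (hrW : ¬ r ∣ ([2, 6, 8, 12] : List ℕ).prod) {q : ℕ} (hq : ¬ r ∣ q) {a : Fin chevF4.rank → ZMod r} (ha : a ≠ 0)
    (haE : a ∈ Eg r (mat hFX ρ) (q : ZMod r)) : cyclotomic (orderOf (q : ZMod r)) ℤ ∣ (mat hFX ρ).charpoly := by
  classical
  set A := mat hFX ρ with hAdef
  set N := orderOf ρ with hNdef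
  have hN : 0 < N := orderOf_pos ρ
  have hA : A ^ N = 1 := by
    rw [hAdef, ← mat_pow hFX hρ, hNdef, pow_orderOf_eq_one, mat_one]
  have hNW : N ∣ ([2, 6, 8, 12] : List ℕ).prod := by
    have h1 : orderOf (⟨ρ, hρ⟩ : ↥(hFX.Wk Set.univ)) ∣ Nat.card ↥(hFX.Wk Set.univ) := orderOf_dvd_natCard _
    rw [Subgroup.orderOf_mk, TF4.card_Wk] at h1
    exact h1
  have hrN : ¬ r ∣ N := fun h => hrW (h.trans hNW)
  have h1 := Cfsg.Agent.Lib.S2378Alg91.cyclotomic_pow_dvd A hN hA hrN q hq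
  have hS : ∀ f ∈ Eg r A (q : ZMod r), (A.map (Int.castRingHom (ZMod r)))ᵀ *ᵥ f = (q : ZMod r) • f := by
    intro f hf
    exact mem_Eg.1 hf
  have h2 := Cfsg.Agent.Lib.S2378Alg91.finrank_le_rootMultiplicity A (q : ZMod r) _ hS
  have h3 : 0 < Module.finrank (ZMod r) ↥(Eg r A (q : ZMod r)) := by
    rw [Module.finrank_pos_iff_exists_ne_zero]
    exact ⟨⟨a, haE⟩, fun h => ha (congrArg Subtype.val h)⟩
  have h4 : 1 ≤ (A.charpoly.map (Int.castRingHom (ZMod r))).rootMultiplicity (q : ZMod r) := by omega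
  exact (dvd_pow_self _ (by omega)).trans h1

theorem degree_bound {ρ : Equiv.Perm (Fin chevF4.nroots)} {k l : ℕ} (hk : 0 < k) (hl : 0 < l) (hkl : k ≠ l)
    (h1 : cyclotomic k ℤ ∣ (mat hFX ρ).charpoly) (h2 : cyclotomic l ℤ ∣ (mat hFX ρ).charpoly) :
    Nat.totient k + Nat.totient l ≤ 4 := by
  have h3 := cyclo_mul_dvd hk hl hkl h1 h2
  have hmon := (Polynomial.cyclotomic.monic k ℤ).mul (Polynomial.cyclotomic.monic l ℤ)
  have h4 := Polynomial.natDegree_le_of_dvd h3 (Matrix.charpoly_monic _).ne_zero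
  rw [Polynomial.natDegree_mul (Polynomial.cyclotomic_ne_zero _ _) (Polynomial.cyclotomic_ne_zero _ _), Polynomial.natDegree_cyclotomic,
    Polynomial.natDegree_cyclotomic, natDegree_charpoly] at h4
  exact h4

end Ext

end Cfsg.Agent.Lib.F4P
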