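import Cfsg.Agent.Lib.F4P.Part1

/-!
# The prime graph of `F₄(2ⁿ)`: linear forms and torus elements
-/

set_option autoImplicit false
set_option linter.unusedSectionVars false
set_option linter.unusedVariables false
set_option linter.unusedSimpArgs false
set_option maxRecDepth 100000

namespace Cfsg.Agent.Lib.F4P

open Cfsg Cfsg.Lie Cfsg.Agent.Lib.Chev Matrix Cfsg.Agent.Lib.ChevFix Cfsg.Agent.Lib.TwTor32 Cfsg.Agent.Lib.Syl54
open Cfsg.Agent.Lib.N65
open Cfsg.Agent.Lib.Syl54.TF4 (hFX)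
open Polynomial (cyclotomic aeval X C)

universe u

section Gen

variable {T : Tabs} {X' : Extra} {R : RootTab} {D : ChevalleyDatum}

/-- The centralizer of a family of torus elements separating roots is the torus (Weyl group form). -/
theorem mem_diag_of_comm_W {F : Type*} [Field F] [Fintype F] (hF : Full T X' R D) (C' : Set (Fin D.rank → Fˣ))
    (h1 : ∀ r, r < D.nroots → ∃ c ∈ C', chiT D c r ≠ 1)
    (h2 : ∀ σ ∈ hF.Wk Set.univ, (∀ c ∈ C', ∀ s, chiT D c (σ s) = chiT D c s) → σ = 1)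
    {z : GL D.Idx F} (hz : z ∈ D.group F) (hc : ∀ c ∈ C', z * tor R D c = tor R D c * z) :
    z ∈ D.diagonalSubgroup F := by
  classical
  obtain ⟨u₁, hu₁, n, u₂, hu₂, e, hn⟩ := exists_bruhat_uniform hF hz
  have hcomm : ∀ c ∈ C', n.1 * tor R D c * n.1⁻¹ = tor R D c := by
    intro c hcC
    refine hn _ ((hF.mem_diagonal_iff).2 ⟨c, rfl⟩) _ ((hF.mem_diagonal_iff).2 ⟨c, rfl⟩) ?_
    rw [hc c hcC]
    group
  have hrho : hF.rhoN F n = 1 := by
    apply h2 _ (hF.rhoN_mem_Wk n)
    intro c hcC s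
    exact chi_conj_N hF c c n (hcomm c hcC) s
  have hnH : n.1 ∈ D.diagonalSubgroup F := hF.mem_diagonal_of_rhoN_eq_one hrho
  have hB : z ∈ D.borelSubgroup F := by
    rw [e]
    exact mul_mem (mul_mem (hF.c.posUnipotent_le_borel hu₁) (hF.c.diagonal_le_borel hnH))
      (hF.c.posUnipotent_le_borel hu₂)
  obtain ⟨u, hu, h, hh, e4⟩ := (hF.mem_borel_iff).1 hB
  obtain ⟨c₁, rfl⟩ := (hF.mem_diagonal_iff).1 hh
  have hut : ∀ c ∈ C', u * tor R D c = tor R D c * u := by
    intro c hcC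
    have h3 : tor R D c₁ * tor R D c = tor R D c * tor R D c₁ := by
      rw [tor_mul, tor_mul, mul_comm]
    have h4 := hc c hcC
    rw [e4] at h4
    have h5 : u * tor R D c * tor R D c₁ = tor R D c * u * tor R D c₁ := by
      calc u * tor R D c * tor R D c₁ = u * (tor R D c * tor R D c₁) := by group
        _ = u * (tor R D c₁ * tor R D c) := by rw [h3]
        _ = u * tor R D c₁ * tor R D c := by group
        _ = tor R D c * (u * tor R D c₁) := h4
        _ = tor R D c * u * tor R D c₁ := by group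
    exact mul_right_cancel h5
  rw [e4, U_eq_one_of_comm_family hF C' h1 hu hut, one_mul]
  exact hh

variable {K : Type*} [Field K] [Fintype K]

/-- The exponential from `ZMod r` attached to an element of order `r`. -/
noncomputable def Zp {r : ℕ} (ζ : Kˣ) (t : ZMod r) : Kˣ := ζ ^ t.val

section Z

variable {r : ℕ} [Fact r.Prime] {ζ : Kˣ} (hζ : orderOf ζ = r)
include hζ

theorem Zp_intCast (i : ℤ) : Zp ζ (i : ZMod r) = ζ ^ i := by
  unfold Zp
  rw [← zpow_natCast, zpow_eq_zpow_iff_modEq, hζ]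
  haveI : NeZero r := ⟨(Fact.out : r.Prime).ne_zero⟩
  apply (ZMod.intCast_eq_intCast_iff _ _ _).1
  simp

theorem Zp_add (s t : ZMod r) : Zp ζ (s + t) = Zp ζ s * Zp ζ t := by
  have e1 := Zp_intCast hζ ((s.val : ℤ) + (t.val : ℤ))
  haveI : NeZero r := ⟨(Fact.out : r.Prime).ne_zero⟩
  have e2 : (((s.val : ℤ) + (t.val : ℤ) : ℤ) : ZMod r) = s + t := by
    push_cast
    simp
  rw [e2, _root_.zpow_add, zpow_natCast, zpow_natCast] at e1
  exact e1

theorem Zp_natCast_mul (q : ℕ) (t : ZMod r) : Zp ζ ((q : ZMod r) * t) = Zp ζ t ^ q := by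
  have e1 := Zp_intCast hζ ((t.val : ℤ) * (q : ℤ))
  haveI : NeZero r := ⟨(Fact.out : r.Prime).ne_zero⟩
  have e2 : (((t.val : ℤ) * (q : ℤ) : ℤ) : ZMod r) = (q : ZMod r) * t := by
    push_cast
    simp [mul_comm]
  rw [e2, _root_.zpow_mul, zpow_natCast, zpow_natCast] at e1
  exact e1

theorem Zp_inj {s t : ZMod r} (h : Zp ζ s = Zp ζ t) : s = t := by
  unfold Zp at h
  haveI : NeZero r := ⟨(Fact.out : r.Prime).ne_zero⟩
  rw [← zpow_natCast, ← zpow_natCast, zpow_eq_zpow_iff_modEq, hζ] at h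
  have h2 := (ZMod.intCast_eq_intCast_iff _ _ _).2 h
  simpa using h2

theorem Zp_zero : Zp ζ (0 : ZMod r) = 1 := by
  unfold Zp
  rw [ZMod.val_zero, pow_zero]

theorem Zp_eq_one_iff {t : ZMod r} : Zp ζ t = 1 ↔ t = 0 := by
  constructor
  · intro h
    exact Zp_inj hζ (h.trans (Zp_zero hζ).symm)
  · rintro rfl
    exact Zp_zero hζ

theorem Zp_sum {ι : Type*} (S : Finset ι) (g : ι → ZMod r) : Zp ζ (∑ i ∈ S, g i) = ∏ i ∈ S, Zp ζ (g i) := by
  classical
  induction S using Finset.induction_on with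
  | empty => simp [Zp_zero hζ]
  | insert a S ha ih => rw [Finset.sum_insert ha, Finset.prod_insert ha, Zp_add hζ, ih]

theorem Zp_zmul (i : ℤ) (t : ZMod r) : Zp ζ (t * (i : ZMod r)) = Zp ζ t ^ i := by
  have e1 := Zp_intCast hζ ((t.val : ℤ) * i)
  haveI : NeZero r := ⟨(Fact.out : r.Prime).ne_zero⟩
  have e2 : (((t.val : ℤ) * i : ℤ) : ZMod r) = t * (i : ZMod r) := by
    push_cast
    simp
  rw [e2, _root_.zpow_mul, zpow_natCast] at e1
  exact e1

end Z

/-- A torus element is described by the linear form `a`. -/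
def Spec {r : ℕ} (ζ : Kˣ) (c : Fin D.rank → Kˣ) (a : Fin D.rank → ZMod r) : Prop :=
  ∀ v : Fin D.rank → ℤ, Xc c v = Zp ζ (a ⬝ᵥ (fun j => ((v j : ℤ) : ZMod r)))

section Sp

variable {r : ℕ} [Fact r.Prime] {ζ : Kˣ}

theorem exists_spec (hF : Full T X' R D) (hζ : orderOf ζ = r) {c : Fin D.rank → Kˣ}
    (hc : (tor R D c : GL D.Idx K) ^ r = 1) : ∃ a : Fin D.rank → ZMod r, Spec (r := r) ζ c a := by
  classical
  have hrp : r.Prime := Fact.out
  haveI : NeZero r := ⟨hrp.ne_zero⟩
  have hprim : IsPrimitiveRoot (ζ : K) r := by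
    rw [IsPrimitiveRoot.coe_units_iff, ← hζ]
    exact IsPrimitiveRoot.orderOf ζ
  have hval : ∀ j : Fin D.rank, (cartanMap D c j) ^ r = 1 := by
    intro j
    have h3 : tor R D (c ^ r) = (tor R D (1 : Fin D.rank → Kˣ) : GL D.Idx K) := by
      rw [← tor_pow, hc]
      exact (tor_one R D).symm
    have h4 := chi_eq_of_tor hF h3 (hF.pF j)
    rw [chiT_pow, chiT_one''] at h4
    rw [← Xc_single, ← rcV_pF hF j, Xc_rc hF _ (hF.pF j).2]
    exact h4
  have hlog : ∀ j : Fin D.rank, ∃ i : ℕ, ζ ^ i = cartanMap D c j := by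
    intro j
    have h1 : ((cartanMap D c j : Kˣ) : K) ^ r = 1 := by
      rw [← Units.val_pow_eq_pow_val, hval, Units.val_one]
    obtain ⟨i, -, hi⟩ := hprim.eq_pow_of_pow_eq_one h1
    refine ⟨i, ?_⟩
    apply Units.ext
    rw [Units.val_pow_eq_pow_val, hi]
  choose lv hlv using hlog
  refine ⟨fun j => ((lv j : ℕ) : ZMod r), ?_⟩
  intro v
  unfold dotProduct
  rw [Zp_sum hζ]
  unfold Xc
  apply Finset.prod_congr rfl
  intro j _
  have e : Zp ζ (((lv j : ℕ) : ZMod r)) = cartanMap D c j := by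
    have := Zp_intCast hζ ((lv j : ℕ) : ℤ)
    rw [zpow_natCast, hlv] at this
    rw [← this]
    congr 1
    simp
  rw [Zp_zmul hζ, e]

theorem exists_c_of_a (BB' : Fin D.rank → Fin D.rank → ℤ)
    (hB : ∀ k j : Fin D.rank, ∑ i : Fin D.rank, BB' i k * D.cartan i (D.simple j) = if j = k then 1 else 0)
    (hζ : orderOf ζ = r) (a : Fin D.rank → ZMod r) : ∃ c : Fin D.rank → Kˣ, Spec (r := r) ζ c a := by
  classical
  have hrp : r.Prime := Fact.out
  haveI : NeZero r := ⟨hrp.ne_zero⟩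
  refine ⟨cOf BB' (fun j => ζ ^ (((a j).val : ℕ) : ℤ)), ?_⟩
  intro v
  rw [Xc_cOf BB' hB, ← Zp_intCast hζ]
  congr 1
  unfold dotProduct
  push_cast
  simp

theorem chi_of_spec (hF : Full T X' R D) {c : Fin D.rank → Kˣ} {a : Fin D.rank → ZMod r} (h : Spec (r := r) ζ c a)
    (s : Fin D.nroots) : chiT D c s = Zp ζ (a ⬝ᵥ (fun j => ((rcV R D s j : ℤ) : ZMod r))) := by
  rw [← Xc_rc hF c s.2, h]

theorem tor_eq_of_spec (hF : Full T X' R D) {c c' : Fin D.rank → Kˣ} {a : Fin D.rank → ZMod r}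
    (h : Spec (r := r) ζ c a) (h' : Spec (r := r) ζ c' a) : (tor R D c : GL D.Idx K) = tor R D c' := by
  apply tor_eq_of_chi hF
  intro s
  rw [chi_of_spec hF h, chi_of_spec hF h']

theorem tor_one_of_spec (hF : Full T X' R D) (hζ : orderOf ζ = r) {c : Fin D.rank → Kˣ}
    (h : Spec (r := r) ζ c 0) : (tor R D c : GL D.Idx K) = 1 := by
  have h1 : (tor R D c : GL D.Idx K) = tor R D (1 : Fin D.rank → Kˣ) := by
    apply tor_eq_of_chi hF
    intro s
    rw [chi_of_spec hF h, chiT_one'', zero_dotProduct, Zp_zero hζ]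
  rw [h1]
  exact tor_one _ _

theorem tor_pow_of_spec (hF : Full T X' R D) (hζ : orderOf ζ = r) {c : Fin D.rank → Kˣ} {a : Fin D.rank → ZMod r}
    (h : Spec (r := r) ζ c a) : (tor R D c : GL D.Idx K) ^ r = 1 := by
  have h1 : (tor R D (c ^ r) : GL D.Idx K) = tor R D (1 : Fin D.rank → Kˣ) := by
    apply tor_eq_of_chi hF
    intro s
    rw [chiT_one'', chiT_pow, chi_of_spec hF h]
    unfold Zp
    have hr : ζ ^ r = 1 := by
      have := pow_orderOf_eq_one ζ
      rwa [hζ] at this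
    rw [← pow_mul, mul_comm, pow_mul, hr, one_pow]
  rw [tor_pow, h1]
  exact tor_one _ _

theorem a_zero_of_tor_one (hF : Full T X' R D) (hζ : orderOf ζ = r) {c : Fin D.rank → Kˣ} {a : Fin D.rank → ZMod r}
    (h : Spec (r := r) ζ c a) (h1 : (tor R D c : GL D.Idx K) = 1) : a = 0 := by
  classical
  funext j
  have h3 : tor R D c = (tor R D (1 : Fin D.rank → Kˣ) : GL D.Idx K) := by
    rw [h1]
    exact (tor_one R D).symm
  have h4 := chi_eq_of_tor hF h3 (hF.pF j)
  rw [chiT_one'', chi_of_spec hF h, Zp_eq_one_iff hζ] at h4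
  have e1 : (fun i => ((rcV R D (hF.pF j) i : ℤ) : ZMod r)) = Pi.single j 1 := by
    funext i
    rw [rcV_pF]
    by_cases hh : i = j
    · subst hh
      simp
    · simp [Pi.single_eq_of_ne hh]
  rw [e1, dotProduct_single, mul_one] at h4
  exact h4

theorem mem_Eg_of_spec (hF : Full T X' R D) (hζ : orderOf ζ = r) {ρ : Equiv.Perm (Fin D.nroots)} {c : Fin D.rank → Kˣ}
    {a : Fin D.rank → ZMod r} (h : Spec (r := r) ζ c a) (q : ℕ)
    (htw : ∀ s : Fin D.nroots, chiT D c (ρ s) = chiT D c s ^ q) : a ∈ Eg r (mat hF ρ) (q : ZMod r) := by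
  classical
  rw [mem_Eg]
  funext j
  have h1 := htw (hF.pF j)
  rw [chi_of_spec hF h, chi_of_spec hF h, ← Zp_natCast_mul hζ] at h1
  have h2 := Zp_inj hζ h1
  have e1 : (fun i => ((rcV R D (hF.pF j) i : ℤ) : ZMod r)) = Pi.single j 1 := by
    funext i
    rw [rcV_pF]
    by_cases hh : i = j
    · subst hh
      simp
    · simp [Pi.single_eq_of_ne hh]
  rw [e1, dotProduct_single, mul_one] at h2
  rw [Pi.smul_apply, smul_eq_mul, ← h2]
  simp only [Matrix.mulVec, dotProduct, redT]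
  apply Finset.sum_congr rfl
  intro i _
  rw [mul_comm]
  rfl

theorem tw_of_mem_Eg (hF : Full T X' R D) (hζ : orderOf ζ = r) {ρ : Equiv.Perm (Fin D.nroots)} (hρ : ρ ∈ hF.Wk Set.univ)
    {c : Fin D.rank → Kˣ} {a : Fin D.rank → ZMod r} (h : Spec (r := r) ζ c a) (q : ℕ)
    (ha : a ∈ Eg r (mat hF ρ) (q : ZMod r)) (s : Fin D.nroots) : chiT D c (ρ s) = chiT D c s ^ q := by
  rw [chi_of_spec hF h, chi_of_spec hF h, ← Zp_natCast_mul hζ, mat_rc hF hρ, lin_step ha]

end Sp

end Gen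

/-- Elements fixed by the Frobenius come from the small field. -/
theorem frob_fixed {F K : Type*} [Field F] [Fintype F] [Field K] [Fintype K] (f : F →+* K) (a : K)
    (ha : a ^ Fintype.card F = a) : ∃ b, f b = a := by
  classical
  by_contra hne
  push_neg at hne
  have hq1 : 1 < Fintype.card F := Fintype.one_lt_card
  have hP : (X ^ Fintype.card F - X : Polynomial K) ≠ 0 := FiniteField.X_pow_card_sub_X_ne_zero K hq1
  have hdeg : (X ^ Fintype.card F - X : Polynomial K).natDegree = Fintype.card F := FiniteField.X_pow_card_sub_X_natDegree_eq K hq1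
  have hS : insert a (Finset.univ.image f) ⊆ (X ^ Fintype.card F - X : Polynomial K).roots.toFinset := by
    intro y hy
    rw [Multiset.mem_toFinset, Polynomial.mem_roots hP, Polynomial.IsRoot.def]
    rcases Finset.mem_insert.1 hy with rfl | hy
    · simp [ha]
    · obtain ⟨b, -, rfl⟩ := Finset.mem_image.1 hy
      simp [← map_pow, FiniteField.pow_card]
  have h1 := Finset.card_le_card hS
  have h2 : (insert a (Finset.univ.image f)).card = Fintype.card F + 1 := by
    rw [Finset.card_insert_of_notMem, Finset.card_image_of_injective _ f.injective, Finset.card_univ]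
    intro h
    obtain ⟨b, -, hb⟩ := Finset.mem_image.1 h
    exact hne b hb
  have h3 := (Multiset.toFinset_card_le _).trans (Polynomial.card_roots' (X ^ Fintype.card F - X : Polynomial K))
  omega

/-- The big extension. -/
theorem exists_ext (F : Type u) [Field F] [Fintype F] {q : ℕ} (hq : Fintype.card F = q) :
    ∃ (K : Type) (_ : Field K) (_ : Fintype K) (f : F →+* K) (σ : K ≃+* K), Fintype.card K = q ^ 24 ∧
      (∀ b, σ (f b) = f b) ∧ (∀ x, σ x = x ^ q) ∧ (∀ a, σ a = a → ∃ b, f b = a) := by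
  classical
  obtain ⟨p', hp'⟩ := CharP.exists F
  have hpp : p'.Prime := CharP.char_is_prime F p'
  haveI : Fact p'.Prime := ⟨hpp⟩
  let K := FiniteField.Extension F p' 24
  letI : Fintype K := Fintype.ofFinite _
  have hKq : Fintype.card K = q ^ 24 := by
    rw [← Nat.card_eq_fintype_card, FiniteField.natCard_extension, Nat.card_eq_fintype_card, hq]
  let σ : K ≃+* K := RingEquiv.ofBijective (FiniteField.frobeniusAlgHom F K : K →ₐ[F] K).toRingHom
    (Finite.injective_iff_bijective.1 (RingHom.injective _))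
  have hσ : ∀ x : K, σ x = x ^ q := by
    intro x
    show x ^ Fintype.card F = x ^ q
    rw [hq]
  let f : F →+* K := algebraMap F K
  have hfσ : ∀ b, σ (f b) = f b := by
    intro b
    rw [hσ, ← map_pow, ← hq, FiniteField.pow_card]
  refine ⟨K, inferInstance, inferInstance, f, σ, hKq, hfσ, hσ, ?_⟩
  intro a ha
  rw [hσ, ← hq] at ha
  exact frob_fixed f a ha

theorem comm_of_pow {G : Type*} [Group G] {g m : G} {p q : ℕ} (hp : 1 < p) (hcop : Nat.Coprime q p) (hg : g ^ p = 1)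
    (hc : m * g ^ q = g ^ q * m) : m * g = g * m := by
  obtain ⟨u, hu⟩ := Nat.exists_mul_mod_eq_one_of_coprime hcop hp
  have e : g = (g ^ q) ^ u := by
    rw [← pow_mul]
    have := pow_eq_pow_mod (q * u) hg
    rw [this, hu.2, pow_one]
  rw [e]
  have hc' : Commute m (g ^ q) := hc
  exact (hc'.pow_right u).eq

end Cfsg.Agent.Lib.F4P
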