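import Cfsg.Agent.Lib.F4P.Part2

/-!
# The prime graph of `F₄(2ⁿ)`: non-adjacency
-/

set_option autoImplicit false
set_option linter.unusedSectionVars false
set_option linter.unusedVariables false
set_option linter.unusedSimpArgs false
set_option maxRecDepth 100000

namespace Cfsg.Agent.Lib.F4P

open Cfsg Cfsg.Lie Cfsg.Agent.Lib.Chev Matrix Cfsg.Agent.Lib.ChevFix Cfsg.Agent.Lib.TwTor32 Cfsg.Agent.Lib.Syl54
open Cfsg.Agent.Lib.N65
open Cfsg.Agent.Lib.Syl54.TF4 (hFX)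
open Polynomial (cyclotomic aeval X C)

theorem charpoly_eq_prod {ρ : Equiv.Perm (Fin chevF4.nroots)} {k l : ℕ} (hk : 0 < k) (hl : 0 < l) (hkl : k ≠ l)
    (h1 : cyclotomic k ℤ ∣ (mat hFX ρ).charpoly) (h2 : cyclotomic l ℤ ∣ (mat hFX ρ).charpoly)
    (hd : Nat.totient k + Nat.totient l = 4) : (mat hFX ρ).charpoly = cyclotomic k ℤ * cyclotomic l ℤ := by
  have h3 := cyclo_mul_dvd hk hl hkl h1 h2
  have hmon := (Polynomial.cyclotomic.monic k ℤ).mul (Polynomial.cyclotomic.monic l ℤ)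
  apply Polynomial.eq_of_monic_of_dvd_of_natDegree_le hmon (Matrix.charpoly_monic _) h3
  rw [natDegree_charpoly, Polynomial.natDegree_mul (Polynomial.cyclotomic_ne_zero _ _) (Polynomial.cyclotomic_ne_zero _ _),
    Polynomial.natDegree_cyclotomic, Polynomial.natDegree_cyclotomic, hd]

theorem trace_eq_coeff (A : Matrix (Fin chevF4.rank) (Fin chevF4.rank) ℤ) : A.trace = - A.charpoly.coeff 3 := by
  haveI : Nonempty (Fin chevF4.rank) := ⟨⟨0, by show 0 < 4; norm_num⟩⟩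
  have := Matrix.trace_eq_neg_charpoly_coeff A
  rw [Fintype.card_fin] at this
  exact this

/-- Two cyclotomic factors that never occur together. -/
theorem excl_pair (W : WChecks) {ρ : Equiv.Perm (Fin chevF4.nroots)} (hρ : ρ ∈ hFX.Wk Set.univ) {k l : ℕ} (hk : 0 < k) (hl : 0 < l)
    (hkl : k ≠ l) (h1 : cyclotomic k ℤ ∣ (mat hFX ρ).charpoly) (h2 : cyclotomic l ℤ ∣ (mat hFX ρ).charpoly)
    (hbad : l = 8 ∨ l = 12 ∨ (l = 6 ∧ (k = 3 ∨ k = 4)) ∨ (l = 4 ∧ k = 3)) : False := by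
  classical
  have hb := degree_bound hk hl hkl h1 h2
  have hself : aeval (mat hFX ρ) (mat hFX ρ).charpoly = 0 := Matrix.aeval_self_charpoly _
  have htr := trace_eq_coeff (mat hFX ρ)
  have hkpos := Nat.totient_pos.2 hk
  obtain ⟨w1, w2, w3⟩ := W.w_pair ρ hρ
  rcases hbad with rfl | rfl | ⟨rfl, rfl | rfl⟩ | ⟨rfl, rfl⟩
  · have : Nat.totient 8 = 4 := by decide
    omega
  · have : Nat.totient 12 = 4 := by decide
    omega
  · have e := charpoly_eq_prod (k := 3) (l := 6) (by norm_num) (by norm_num) (by norm_num) h1 h2 (by decide)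
    have e' : (mat hFX ρ).charpoly = X ^ 4 + X ^ 2 + 1 := by
      rw [e, cyc3, cyc6]
      ring
    rw [e'] at hself htr
    apply w2
    refine ⟨?_, ?_⟩
    · rw [htr]
      simp [Polynomial.coeff_X_pow, Polynomial.coeff_one]
    · simpa only [map_add, map_pow, Polynomial.aeval_X, map_one] using hself
  · have e := charpoly_eq_prod (k := 4) (l := 6) (by norm_num) (by norm_num) (by norm_num) h1 h2 (by decide)
    have e' : (mat hFX ρ).charpoly = X ^ 4 - X ^ 3 + 2 • X ^ 2 - X + 1 := by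
      rw [e, cyc4, cyc6]
      ring
    rw [e'] at hself htr
    apply w3
    refine ⟨?_, ?_⟩
    · rw [htr]
      simp [Polynomial.coeff_X_pow, Polynomial.coeff_one, Polynomial.coeff_X]
    · simpa only [map_add, map_sub, map_nsmul, map_pow, Polynomial.aeval_X, map_one] using hself
  · have e := charpoly_eq_prod (k := 3) (l := 4) (by norm_num) (by norm_num) (by norm_num) h1 h2 (by decide)
    have e' : (mat hFX ρ).charpoly = X ^ 4 + X ^ 3 + 2 • X ^ 2 + X + 1 := by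
      rw [e, cyc3, cyc4]
      ring
    rw [e'] at hself htr
    apply w1
    refine ⟨?_, ?_⟩
    · rw [htr]
      simp [Polynomial.coeff_X_pow, Polynomial.coeff_one, Polynomial.coeff_X]
    · simpa only [map_add, map_nsmul, map_pow, Polynomial.aeval_X, map_one] using hself

section Ext

variable {F : Type*} [Field F] [Fintype F] {K : Type*} [Field K] [Fintype K] {q : ℕ} (f : F →+* K) (σ : K ≃+* K)

theorem exists_zeta {r : ℕ} [Fact r.Prime] (hrQ : r ∣ Fintype.card K - 1) : ∃ ζ : Kˣ, orderOf ζ = r := by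
  classical
  have hcardK : r ∣ Nat.card Kˣ := by
    rw [Nat.card_eq_fintype_card, Fintype.card_units]
    exact hrQ
  exact exists_prime_orderOf_dvd_card' r hcardK

theorem iota_mem (f : F →+* K) (x : ↥(chevF4.group F)) : glM chevF4 f x.1 ∈ chevF4.group K :=
  map_group_le chevF4 f ⟨x.1, x.2, rfl⟩

theorem iota_pow_one (f : F →+* K) {x : ↥(chevF4.group F)} {r : ℕ} (h : x ^ r = 1) : (glM chevF4 f x.1) ^ r = 1 := by
  have h1 : x.1 ^ r = 1 := congrArg Subtype.val h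
  rw [← map_pow, h1, map_one]

theorem iota_ne_one (f : F →+* K) {x : ↥(chevF4.group F)} (h : x ≠ 1) : glM chevF4 f x.1 ≠ 1 := by
  intro h0
  apply h
  apply Subtype.ext
  apply glM_injective chevF4 f
  rw [h0]
  exact (map_one (glM chevF4 f)).symm

theorem conj_inv_pow_aux {G : Type*} [Group G] (Y g : G) (k : ℕ) : (Y⁻¹ * g * Y) ^ k = Y⁻¹ * g ^ k * Y := by
  have := conj_pow (a := Y⁻¹) (b := g) (i := k)
  rwa [inv_inv] at this

theorem conj_tor_pow {Y : GL chevF4.Idx K} {g : GL chevF4.Idx K} {c : Fin chevF4.rank → Kˣ}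
    (h : Y⁻¹ * g * Y = tor RootF4T.R chevF4 c) {r : ℕ} (hg : g ^ r = 1) : (tor RootF4T.R chevF4 c : GL chevF4.Idx K) ^ r = 1 := by
  rw [← h, conj_inv_pow_aux, hg]
  group

theorem conj_tor_ne {Y : GL chevF4.Idx K} {g : GL chevF4.Idx K} {c : Fin chevF4.rank → Kˣ}
    (h : Y⁻¹ * g * Y = tor RootF4T.R chevF4 c) (hg : g ≠ 1) : (tor RootF4T.R chevF4 c : GL chevF4.Idx K) ≠ 1 := by
  rw [← h]
  intro h0
  apply hg
  calc g = Y * (Y⁻¹ * g * Y) * Y⁻¹ := by group
    _ = 1 := by rw [h0]; group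

/-- A twisted element of the torus of prime order gives a non-zero eigenvector. -/
theorem spec_of_elt {r : ℕ} [Fact r.Prime] {ζ : Kˣ} (hζ : orderOf ζ = r) {ρ : Equiv.Perm (Fin chevF4.nroots)}
    {Y : GL chevF4.Idx K} {g : GL chevF4.Idx K} {c : Fin chevF4.rank → Kˣ} (h : Y⁻¹ * g * Y = tor RootF4T.R chevF4 c)
    (hg : g ^ r = 1) (hne : g ≠ 1) (q : ℕ) (htw : ∀ s : Fin chevF4.nroots, chiT chevF4 c (ρ s) = chiT chevF4 c s ^ q) :
    ∃ a : Fin chevF4.rank → ZMod r, a ≠ 0 ∧ a ∈ Eg r (mat hFX ρ) (q : ZMod r) ∧ Spec (r := r) ζ c a := by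
  obtain ⟨a, ha⟩ := exists_spec hFX hζ (conj_tor_pow h hg)
  refine ⟨a, ?_, mem_Eg_of_spec hFX hζ ha q htw, ha⟩
  rintro rfl
  exact conj_tor_ne h hne (tor_one_of_spec hFX hζ ha)

/-- Two commuting elements of prime orders `≥ 5` are simultaneously conjugate into the torus. -/
theorem conj_pair {r s : ℕ} [Fact r.Prime] [Fact s.Prime] (hr : ¬ r ∣ ((chevF4.diagonalSubgroup K).subgroupOf (chevF4.group K)).index)
    (hs : ¬ s ∣ ((chevF4.diagonalSubgroup K).subgroupOf (chevF4.group K)).index) {g h : GL chevF4.Idx K} (hg : g ∈ chevF4.group K)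
    (hh : h ∈ chevF4.group K) (hcomm : g * h = h * g) (hgr : g ^ r = 1) (hhs : h ^ s = 1) :
    ∃ Y ∈ chevF4.group K, ∃ c d : Fin chevF4.rank → Kˣ, Y⁻¹ * g * Y = tor RootF4T.R chevF4 c ∧ Y⁻¹ * h * Y = tor RootF4T.R chevF4 d := by
  obtain ⟨Y, hY, hYt⟩ := exists_conj_torus hFX hr hg hgr
  obtain ⟨c₀, hc₀⟩ := (hFX.mem_diagonal_iff).1 hYt
  have hT : (tor RootF4T.R chevF4 c₀ : GL chevF4.Idx K) ∈ chevF4.diagonalSubgroup K := (hFX.mem_diagonal_iff).2 ⟨c₀, rfl⟩
  set z := Y⁻¹ * h * Y with hz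
  have hzG : z ∈ chevF4.group K := mul_mem (mul_mem (inv_mem hY) hh) hY
  have hzt : z * tor RootF4T.R chevF4 c₀ = tor RootF4T.R chevF4 c₀ * z := by
    rw [← hc₀, hz]
    calc Y⁻¹ * h * Y * (Y⁻¹ * g * Y) = Y⁻¹ * (h * g) * Y := by group
      _ = Y⁻¹ * (g * h) * Y := by rw [hcomm]
      _ = _ := by group
  have hzs : z ^ s = 1 := by
    rw [hz, conj_inv_pow_aux, hhs]
    group
  obtain ⟨m, hm, hmt, hmz⟩ := conj_central hFX hs hT hzG hzt hzs
  obtain ⟨d, hd⟩ := (hFX.mem_diagonal_iff).1 hmz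
  refine ⟨Y * m, mul_mem hY hm, c₀, d, ?_, ?_⟩
  · calc (Y * m)⁻¹ * g * (Y * m) = m⁻¹ * (Y⁻¹ * g * Y) * m := by group
      _ = m⁻¹ * (tor RootF4T.R chevF4 c₀ * m) := by rw [hc₀]; group
      _ = m⁻¹ * (m * tor RootF4T.R chevF4 c₀) := by rw [hmt]
      _ = _ := by group
  · rw [← hd, hz]
    group

/-- **Non-adjacency for primes `≥ 5`.** -/
theorem nonadj_big (W : WChecks) (hq : Fintype.card F = q) (hfσ : ∀ b, σ (f b) = f b) (hσ : ∀ x, σ x = x ^ q)
    {r s : ℕ} [Fact r.Prime] [Fact s.Prime] (hrW : ¬ r ∣ ([2, 6, 8, 12] : List ℕ).prod) (hsW : ¬ s ∣ ([2, 6, 8, 12] : List ℕ).prod)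
    (hrQ : r ∣ Fintype.card K - 1) (hsQ : s ∣ Fintype.card K - 1) (hrq : ¬ r ∣ q) (hsq : ¬ s ∣ q)
    {u v : ↥(chevF4.group F)} (hu : orderOf u = r) (hv : orderOf v = s) (hcomm : u * v = v * u)
    (hrs : orderOf (q : ZMod r) ≠ orderOf (q : ZMod s))
    (hbad : orderOf (q : ZMod s) = 8 ∨ orderOf (q : ZMod s) = 12 ∨ (orderOf (q : ZMod s) = 6 ∧ (orderOf (q : ZMod r) = 3 ∨ orderOf (q : ZMod r) = 4)) ∨
      (orderOf (q : ZMod s) = 4 ∧ orderOf (q : ZMod r) = 3)) : False := by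
  classical
  have hrp : r.Prime := Fact.out
  have hsp : s.Prime := Fact.out
  have hur : u ^ r = 1 := by rw [← hu]; exact pow_orderOf_eq_one u
  have hvs : v ^ s = 1 := by rw [← hv]; exact pow_orderOf_eq_one v
  have hune : u ≠ 1 := by
    rintro rfl
    rw [orderOf_one] at hu
    exact hrp.one_lt.ne hu
  have hvne : v ≠ 1 := by
    rintro rfl
    rw [orderOf_one] at hv
    exact hsp.one_lt.ne hv
  have hc : glM chevF4 f u.1 * glM chevF4 f v.1 = glM chevF4 f v.1 * glM chevF4 f u.1 := by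
    rw [← map_mul, ← map_mul]
    have := congrArg Subtype.val hcomm
    exact congrArg _ this
  obtain ⟨Y, hY, c, d, hc₁, hc₂⟩ := conj_pair (idx_not_dvd hrW hrQ) (idx_not_dvd hsW hsQ) (iota_mem f u) (iota_mem f v) hc
    (iota_pow_one f hur) (iota_pow_one f hvs)
  obtain ⟨ρ, hρ, htw⟩ := twist_of_Y hFX f σ q hfσ hσ hY
  obtain ⟨ζr, hζr⟩ := exists_zeta (K := K) hrQ
  obtain ⟨ζs, hζs⟩ := exists_zeta (K := K) hsQ
  obtain ⟨a, ha0, haE, -⟩ := spec_of_elt hζr hc₁ (iota_pow_one f hur) (iota_ne_one f hune) q (htw _ c u.2 hc₁)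
  obtain ⟨b, hb0, hbE, -⟩ := spec_of_elt hζs hc₂ (iota_pow_one f hvs) (iota_ne_one f hvne) q (htw _ d v.2 hc₂)
  have h1 := cyclo_dvd' hρ hrW hrq ha0 haE
  have h2 := cyclo_dvd' hρ hsW hsq hb0 hbE
  have hu1 : IsUnit (q : ZMod r) := isUnit_iff_ne_zero.2 (fun h => hrq ((ZMod.natCast_eq_zero_iff _ _).1 h))
  have hu2 : IsUnit (q : ZMod s) := isUnit_iff_ne_zero.2 (fun h => hsq ((ZMod.natCast_eq_zero_iff _ _).1 h))
  exact excl_pair W hρ hu1.isOfFinOrder.orderOf_pos hu2.isOfFinOrder.orderOf_pos hrs h1 h2 hbad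

/-- The cyclotomic polynomial of degree `4` is the characteristic polynomial. -/
theorem relation_of_dvd {ρ : Equiv.Perm (Fin chevF4.nroots)} {l : ℕ} (hl : l = 8 ∨ l = 12)
    (h : cyclotomic l ℤ ∣ (mat hFX ρ).charpoly) :
    (mat hFX ρ) ^ 4 + 1 = 0 ∨ (mat hFX ρ) ^ 4 - (mat hFX ρ) ^ 2 + 1 = 0 := by
  have hself : aeval (mat hFX ρ) (mat hFX ρ).charpoly = 0 := Matrix.aeval_self_charpoly _
  have hd : (mat hFX ρ).charpoly = cyclotomic l ℤ := by
    apply Polynomial.eq_of_monic_of_dvd_of_natDegree_le (Polynomial.cyclotomic.monic l ℤ) (Matrix.charpoly_monic _) h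
    rw [natDegree_charpoly, Polynomial.natDegree_cyclotomic]
    rcases hl with rfl | rfl <;> decide
  rw [hd] at hself
  rcases hl with rfl | rfl
  · left
    rw [cyc8] at hself
    simpa only [map_add, map_pow, Polynomial.aeval_X, map_one] using hself
  · right
    rw [cyc12] at hself
    simpa only [map_add, map_sub, map_pow, Polynomial.aeval_X, map_one] using hself

/-- **Non-adjacency for the primes `2` and `3` and regular eigenvalues.** -/
theorem nonadj_small (W : WChecks) (hKq : Fintype.card K = q ^ 24) (hq : Fintype.card F = q) (hq2 : 2 ∣ q) (hq3 : (q : ZMod 3) ^ 2 = 1)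
    (hfσ : ∀ b, σ (f b) = f b) (hσ : ∀ x, σ x = x ^ q)
    {r s : ℕ} [Fact r.Prime] [Fact s.Prime] (hr : r = 2 ∨ r = 3) (hsW : ¬ s ∣ ([2, 6, 8, 12] : List ℕ).prod)
    (hsQ : s ∣ Fintype.card K - 1) (hsq : ¬ s ∣ q)
    {u v : ↥(chevF4.group F)} (hu : orderOf u = r) (hv : orderOf v = s) (hcomm : u * v = v * u)
    (hl : orderOf (q : ZMod s) = 8 ∨ orderOf (q : ZMod s) = 12) : False := by
  classical
  have hrp : r.Prime := Fact.out
  have hsp : s.Prime := Fact.out
  have hs2 : s ≠ 2 := by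
    rintro rfl
    exact hsW (by norm_num)
  have hs3 : s ≠ 3 := by
    rintro rfl
    exact hsW (by norm_num)
  have hur : u ^ r = 1 := by rw [← hu]; exact pow_orderOf_eq_one u
  have hvs : v ^ s = 1 := by rw [← hv]; exact pow_orderOf_eq_one v
  have hune : u ≠ 1 := by
    rintro rfl
    rw [orderOf_one] at hu
    exact hrp.one_lt.ne hu
  have hvne : v ≠ 1 := by
    rintro rfl
    rw [orderOf_one] at hv
    exact hsp.one_lt.ne hv
  have hc : glM chevF4 f u.1 * glM chevF4 f v.1 = glM chevF4 f v.1 * glM chevF4 f u.1 := by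
    rw [← map_mul, ← map_mul]
    have := congrArg Subtype.val hcomm
    exact congrArg _ this
  obtain ⟨Y, hY, hYt⟩ := exists_conj_torus hFX (idx_not_dvd hsW hsQ) (iota_mem f v) (iota_pow_one f hvs)
  obtain ⟨d, hd⟩ := (hFX.mem_diagonal_iff).1 hYt
  obtain ⟨ρ, hρ, htw⟩ := twist_of_Y hFX f σ q hfσ hσ hY
  obtain ⟨ζs, hζs⟩ := exists_zeta (K := K) hsQ
  obtain ⟨a, ha0, haE, haS⟩ := spec_of_elt hζs hd (iota_pow_one f hvs) (iota_ne_one f hvne) q (htw _ d v.2 hd)
  have h2 := cyclo_dvd' hρ hsW hsq ha0 haE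
  have hrel := relation_of_dvd hl h2
  have hreg := regular_eig W hρ hs2 ha0 haE hrel
  -- the centralizer of the torus element
  have hzT : Y⁻¹ * glM chevF4 f u.1 * Y ∈ chevF4.diagonalSubgroup K := by
    apply mem_diag_of_comm_W hFX {d}
    · intro α hα
      refine ⟨d, rfl, ?_⟩
      have := chi_of_spec hFX haS ⟨α, hα⟩
      simp only at this
      rw [this]
      intro h1
      exact hreg ⟨α, hα⟩ ((Zp_eq_one_iff hζs).1 h1)
    · rintro y hy hfix
      apply stab_trivial' W hs2 hs3 hreg hy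
      intro α
      have h1 := hfix d rfl α
      rw [chi_of_spec hFX haS, chi_of_spec hFX haS] at h1
      exact Zp_inj hζs h1
    · exact mul_mem (mul_mem (inv_mem hY) (iota_mem f u)) hY
    · rintro c rfl
      rw [← hd]
      calc Y⁻¹ * glM chevF4 f u.1 * Y * (Y⁻¹ * glM chevF4 f v.1 * Y) = Y⁻¹ * (glM chevF4 f u.1 * glM chevF4 f v.1) * Y := by group
        _ = Y⁻¹ * (glM chevF4 f v.1 * glM chevF4 f u.1) * Y := by rw [hc]
        _ = _ := by group
  obtain ⟨c, hc'⟩ := (hFX.mem_diagonal_iff).1 hzT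
  rcases hr with rfl | rfl
  · -- odd order
    have h1 := pow_card_of_data hFX f (x := u) hc'
    have hodd : Odd (Fintype.card K - 1) := by
      rw [hKq]
      have h3 : Even (q ^ 24) := by
        rw [even_iff_two_dvd]
        exact hq2.trans (dvd_pow_self _ (by norm_num))
      have h4 : 0 < q ^ 24 := by
        have : 0 < Fintype.card K := Fintype.card_pos
        omega
      exact Nat.Even.sub_odd h4 h3 odd_one
    have h5 : orderOf u ∣ Fintype.card K - 1 := orderOf_dvd_of_pow_eq_one h1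
    rw [hu] at h5
    have := hodd.not_two_dvd_nat
    exact this h5
  · -- three
    have h3Q : 3 ∣ Fintype.card K - 1 := by
      rw [hKq]
      have hq0 : 0 < q := by
        have : 1 < Fintype.card F := Fintype.one_lt_card
        omega
      apply (pow_eq_one_iff_dvd hq0 24).1
      have : (q : ZMod 3) ^ 24 = ((q : ZMod 3) ^ 2) ^ 12 := by ring
      rw [this, hq3, one_pow]
    obtain ⟨ζ₃, hζ₃⟩ := exists_zeta (K := K) h3Q
    obtain ⟨b, hb0, hbE, -⟩ := spec_of_elt hζ₃ hc' (iota_pow_one f hur) (iota_ne_one f hune) q (htw _ c u.2 hc')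
    apply hb0
    apply eq_zero_of_all
    intro v'
    have h4 := lin_pow hbE 4 v'
    have h2' := lin_pow hbE 2 v'
    have hq4 : (q : ZMod 3) ^ 4 = 1 := by
      have : (q : ZMod 3) ^ 4 = ((q : ZMod 3) ^ 2) ^ 2 := by ring
      rw [this, hq3, one_pow]
    rw [hq4, one_mul] at h4
    rw [hq3, one_mul] at h2'
    rcases hrel with h | h
    · have e : ∀ j, ((((mat hFX ρ) ^ 4 *ᵥ v') j : ℤ) : ZMod 3) = - ((v' j : ℤ) : ZMod 3) := by
        intro j
        have h5 : (mat hFX ρ) ^ 4 = -1 := eq_neg_of_add_eq_zero_left h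
        rw [h5, Matrix.neg_mulVec, Matrix.one_mulVec, Pi.neg_apply, Int.cast_neg]
      have e2 : (fun j => ((((mat hFX ρ) ^ 4 *ᵥ v') j : ℤ) : ZMod 3)) = - (fun j => ((v' j : ℤ) : ZMod 3)) := by
        funext j
        rw [e j]
        rfl
      rw [e2, dotProduct_neg] at h4
      have h6 : (2 : ZMod 3) * b ⬝ᵥ (fun j => ((v' j : ℤ) : ZMod 3)) = 0 := by
        linear_combination -h4
      have h7 : (2 : ZMod 3) ≠ 0 := by
        intro h
        have h8 : ((2 : ℕ) : ZMod 3) = 0 := by exact_mod_cast h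
        have := (ZMod.natCast_eq_zero_iff _ _).1 h8
        omega
      rcases mul_eq_zero.1 h6 with h8 | h8
      · exact absurd h8 h7
      · exact h8
    · have e : (mat hFX ρ) ^ 4 = (mat hFX ρ) ^ 2 - 1 := by
        linear_combination (norm := noncomm_ring) h
      have e2 : (fun j => ((((mat hFX ρ) ^ 4 *ᵥ v') j : ℤ) : ZMod 3)) =
          (fun j => ((((mat hFX ρ) ^ 2 *ᵥ v') j : ℤ) : ZMod 3)) - (fun j => ((v' j : ℤ) : ZMod 3)) := by
        funext j
        rw [e, Matrix.sub_mulVec, Matrix.one_mulVec]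
        simp
      rw [e2, dotProduct_sub] at h4
      linear_combination h2' - h4

end Ext

end Cfsg.Agent.Lib.F4P
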