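import Cfsg.Agent.Lib.F4P.Part3

/-!
# The prime graph of `F₄(2ⁿ)`: linear algebra for adjacency
-/

set_option autoImplicit false
set_option linter.unusedSectionVars false
set_option linter.unusedVariables false
set_option linter.unusedSimpArgs false
set_option maxRecDepth 100000

namespace Cfsg.Agent.Lib.F4P

open Cfsg Cfsg.Lie Cfsg.Agent.Lib.Chev Matrix Cfsg.Agent.Lib.ChevFix Cfsg.Agent.Lib.TwTor32 Cfsg.Agent.Lib.Syl54
open Cfsg.Agent.Lib.N65
open Cfsg.Agent.Lib.Syl54.TF4 (hFX)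
open Polynomial (cyclotomic aeval X C)

/-- The `p`-torsion of a homocyclic group is large. -/
theorem card_torsion_lower {P : Type*} [Group P] [Finite P] {p v a : ℕ} [Fact p.Prime] [Nontrivial P]
    (φ : P ≃* (Fin a → Multiplicative (ZMod (p ^ v)))) : p ^ a ≤ Nat.card {x : P // x ^ p = 1} := by
  classical
  have hp : p.Prime := Fact.out
  have hv : 0 < v := by
    rcases Nat.eq_zero_or_pos v with rfl | h
    · exfalso
      obtain ⟨x, y, hxy⟩ := exists_pair_ne P
      apply hxy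
      apply φ.injective
      funext i
      have h1 : Subsingleton (ZMod (p ^ 0)) := by
        rw [pow_zero]
        exact inferInstanceAs (Subsingleton (Fin 1))
      exact h1.elim _ _
    · exact h
  haveI : NeZero (p ^ v) := ⟨pow_ne_zero _ hp.ne_zero⟩
  haveI : NeZero p := ⟨hp.ne_zero⟩
  let g : (Fin a → ZMod p) → {x : P // x ^ p = 1} := fun w =>
    ⟨φ.symm (fun i => Multiplicative.ofAdd (((p ^ (v - 1) * (w i).val : ℕ)) : ZMod (p ^ v))), by
      apply φ.injective
      rw [map_pow, φ.apply_symm_apply, map_one]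
      funext i
      rw [Pi.pow_apply, Pi.one_apply, ← ofAdd_nsmul]
      apply Multiplicative.toAdd.injective
      rw [toAdd_ofAdd, toAdd_one, nsmul_eq_mul]
      rw [← Nat.cast_mul, ZMod.natCast_eq_zero_iff]
      refine ⟨(w i).val, ?_⟩
      rw [← mul_assoc, ← pow_succ']
      congr 2
      omega⟩
  have hg : Function.Injective g := by
    intro w w' h
    have h1 := congrArg (fun x => φ x.1) h
    simp only [g, φ.apply_symm_apply] at h1
    funext i
    have h2 := congrFun h1 i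
    have h3 : (((p ^ (v - 1) * (w i).val : ℕ)) : ZMod (p ^ v)) = (((p ^ (v - 1) * (w' i).val : ℕ)) : ZMod (p ^ v)) :=
      Multiplicative.ofAdd.injective h2
    rw [ZMod.natCast_eq_natCast_iff'] at h3
    have hlt : ∀ t : ZMod p, p ^ (v - 1) * t.val < p ^ v := by
      intro t
      have e : p ^ v = p ^ (v - 1) * p := by
        rw [← pow_succ]
        congr 1
        omega
      rw [e]
      exact Nat.mul_lt_mul_of_pos_left (ZMod.val_lt t) (pow_pos hp.pos _)
    rw [Nat.mod_eq_of_lt (hlt _), Nat.mod_eq_of_lt (hlt _)] at h3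
    have h4 := Nat.eq_of_mul_eq_mul_left (pow_pos hp.pos _) h3
    exact ZMod.val_injective p h4
  have h1 := Nat.card_le_card_of_injective g hg
  have h2 : Nat.card (Fin a → ZMod p) = p ^ a := by
    rw [Nat.card_eq_fintype_card, Fintype.card_fun, ZMod.card, Fintype.card_fin]
  rwa [h2] at h1

/-- The stabilizer of a family of vectors separating roots is trivial. -/
theorem stab_family (W : WChecks) {s : ℕ} [Fact s.Prime] (hs2 : s ≠ 2) (hs3 : s ≠ 3) (S : Set (Fin chevF4.rank → ZMod s))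
    (hreg : ∀ α : Fin chevF4.nroots, ∃ a ∈ S, a ⬝ᵥ (fun j => ((rcV RootF4T.R chevF4 α j : ℤ) : ZMod s)) ≠ 0)
    {y : Equiv.Perm (Fin chevF4.nroots)} (hy : y ∈ hFX.Wk Set.univ)
    (hfix : ∀ a ∈ S, ∀ α : Fin chevF4.nroots, a ⬝ᵥ (fun j => ((rcV RootF4T.R chevF4 (y α) j : ℤ) : ZMod s)) = a ⬝ᵥ (fun j => ((rcV RootF4T.R chevF4 α j : ℤ) : ZMod s))) :
    y = 1 := by
  classical
  by_contra hne
  have hsp : s.Prime := Fact.out
  have hfixk : ∀ a ∈ S, ∀ (k : ℕ) (α : Fin chevF4.nroots), a ⬝ᵥ (fun j => ((rcV RootF4T.R chevF4 ((y ^ k) α) j : ℤ) : ZMod s)) = a ⬝ᵥ (fun j => ((rcV RootF4T.R chevF4 α j : ℤ) : ZMod s)) := by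
    intro a ha k
    induction k with
    | zero => intro α; rfl
    | succ k ih =>
      intro α
      rw [pow_succ', Equiv.Perm.mul_apply, hfix a ha, ih]
  have hN : orderOf y ∣ 2 ^ 7 * 3 ^ 2 := by
    have h1 : orderOf (⟨y, hy⟩ : ↥(hFX.Wk Set.univ)) ∣ Nat.card ↥(hFX.Wk Set.univ) := orderOf_dvd_natCard _
    rw [Subgroup.orderOf_mk, TF4.card_Wk] at h1
    simpa using h1
  have hN1 : orderOf y ≠ 1 := fun h => hne (orderOf_eq_one_iff.1 h)
  obtain ⟨p, hp, hpd⟩ := Nat.exists_prime_and_dvd hN1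
  have hp23 : p = 2 ∨ p = 3 := by
    rcases hp.dvd_mul.1 (hpd.trans hN) with h4 | h4
    · exact Or.inl ((Nat.prime_dvd_prime_iff_eq hp Nat.prime_two).1 (hp.dvd_of_dvd_pow h4))
    · exact Or.inr ((Nat.prime_dvd_prime_iff_eq hp Nat.prime_three).1 (hp.dvd_of_dvd_pow h4))
  set y' := y ^ (orderOf y / p) with hy'
  have hy'p : y' ^ p = 1 := by
    rw [hy', ← pow_mul, Nat.div_mul_cancel hpd, pow_orderOf_eq_one]
  have hy'ne : y' ≠ 1 := by
    intro h0
    have h1 := orderOf_dvd_of_pow_eq_one h0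
    have h2 : 0 < orderOf y := orderOf_pos y
    have h3 := Nat.le_of_dvd (Nat.div_pos (Nat.le_of_dvd h2 hpd) hp.pos) h1
    have h4 := Nat.div_lt_self h2 hp.one_lt
    omega
  have hy'W : y' ∈ hFX.Wk Set.univ := pow_mem hy _
  rcases hp23 with rfl | rfl
  · obtain ⟨α, hα⟩ := W.w_ord2 y' hy'W hy'p hy'ne
    obtain ⟨a, haS, hreg'⟩ := hreg α
    have h1 := hfixk a haS (orderOf y / 2) α
    rw [← hy'] at h1
    have hdot : a ⬝ᵥ (fun j => ((rcV RootF4T.R chevF4 (y' α) j : ℤ) : ZMod s)) = a ⬝ᵥ (fun j => ((- rcV RootF4T.R chevF4 α j : ℤ) : ZMod s)) := by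
      congr 1
      funext j
      rw [hα j]
    rw [h1] at hdot
    have h3 : a ⬝ᵥ (fun j => ((- rcV RootF4T.R chevF4 α j : ℤ) : ZMod s)) = - (a ⬝ᵥ (fun j => ((rcV RootF4T.R chevF4 α j : ℤ) : ZMod s))) := by
      simp [dotProduct, Finset.sum_neg_distrib]
    rw [h3] at hdot
    have h4 : (2 : ZMod s) * a ⬝ᵥ (fun j => ((rcV RootF4T.R chevF4 α j : ℤ) : ZMod s)) = 0 := by
      linear_combination hdot
    rcases mul_eq_zero.1 h4 with h5 | h5
    · have h6 : ((2 : ℕ) : ZMod s) = 0 := by exact_mod_cast h5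
      have h7 := (ZMod.natCast_eq_zero_iff _ _).1 h6
      exact hs2 ((Nat.prime_dvd_prime_iff_eq hsp Nat.prime_two).1 h7)
    · exact hreg' h5
  · obtain ⟨α, hα⟩ := W.w_ord3 y' hy'W hy'p hy'ne
    obtain ⟨a, haS, hreg'⟩ := hreg α
    have h1 := hfixk a haS (orderOf y / 3) α
    rw [← hy'] at h1
    have h1' := hfixk a haS (orderOf y / 3) (y' α)
    rw [← hy', h1] at h1'
    have h3 : a ⬝ᵥ (fun j => ((rcV RootF4T.R chevF4 α j : ℤ) : ZMod s)) + a ⬝ᵥ (fun j => ((rcV RootF4T.R chevF4 (y' α) j : ℤ) : ZMod s)) +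
        a ⬝ᵥ (fun j => ((rcV RootF4T.R chevF4 (y' (y' α)) j : ℤ) : ZMod s)) = 0 := by
      simp only [dotProduct, ← Finset.sum_add_distrib]
      apply Finset.sum_eq_zero
      intro j _
      have h4 : ((rcV RootF4T.R chevF4 α j : ℤ) : ZMod s) + ((rcV RootF4T.R chevF4 (y' α) j : ℤ) : ZMod s) + ((rcV RootF4T.R chevF4 (y' (y' α)) j : ℤ) : ZMod s) = 0 := by
        have := congrArg (fun z : ℤ => (z : ZMod s)) (hα j)
        simpa using this
      linear_combination (a j) * h4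
    rw [h1', h1] at h3
    have h4 : (3 : ZMod s) * a ⬝ᵥ (fun j => ((rcV RootF4T.R chevF4 α j : ℤ) : ZMod s)) = 0 := by
      linear_combination h3
    rcases mul_eq_zero.1 h4 with h5 | h5
    · have h6 : ((3 : ℕ) : ZMod s) = 0 := by exact_mod_cast h5
      have h7 := (ZMod.natCast_eq_zero_iff _ _).1 h6
      exact hs3 ((Nat.prime_dvd_prime_iff_eq hsp Nat.prime_three).1 h7)
    · exact hreg' h5

/-- An eigenvector for a quadratic relation detects a vector unless it is an eigenvector of the matrix. -/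
theorem sep_quad {p : ℕ} [Fact p.Prime] {A : Matrix (Fin chevF4.rank) (Fin chevF4.rank) ℤ} {u : ZMod p} {t : ℤ}
    (hA : A ^ 2 = t • A - 1) (hu : u ^ 2 = (t : ZMod p) * u - 1) (v : Fin chevF4.rank → ℤ)
    (hmin : ∃ i j : Fin chevF4.rank, ¬ (p : ℤ) ∣ (v i * (A *ᵥ v) j - v j * (A *ᵥ v) i)) :
    ∃ a ∈ Eg p A u, a ⬝ᵥ (fun j => ((v j : ℤ) : ZMod p)) ≠ 0 := by
  classical
  by_contra hall
  push_neg at hall
  set Ā := A.map (Int.castRingHom (ZMod p)) with hĀ
  set u' : ZMod p := (t : ZMod p) - u with hu'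
  have hĀ2 : Ā * Ā = (t : ZMod p) • Ā - 1 := by
    have h1 := congrArg (fun M => M.map (Int.castRingHom (ZMod p))) hA
    simp only [pow_two] at h1
    rw [hĀ, ← Matrix.map_mul, h1]
    ext i j
    rw [Matrix.map_apply, Matrix.sub_apply, Matrix.sub_apply, Matrix.smul_apply, Matrix.smul_apply, Matrix.map_apply, Matrix.one_apply, Matrix.one_apply]
    by_cases h : i = j <;> simp [h]
  have hvbar : ∀ w : Fin chevF4.rank → ℤ, (fun j => (((A *ᵥ w) j : ℤ) : ZMod p)) = Ā *ᵥ (fun j => ((w j : ℤ) : ZMod p)) := by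
    intro w
    funext j
    exact RingHom.map_mulVec (Int.castRingHom (ZMod p)) A w j
  set vb : Fin chevF4.rank → ZMod p := fun j => ((v j : ℤ) : ZMod p) with hvb
  have hmem : ∀ w : Fin chevF4.rank → ZMod p, (w ᵥ* Ā - u' • w) ∈ Eg p A u := by
    intro w
    rw [mem_Eg]
    show Āᵀ *ᵥ (w ᵥ* Ā - u' • w) = u • (w ᵥ* Ā - u' • w)
    rw [Matrix.mulVec_transpose, Matrix.sub_vecMul, Matrix.vecMul_vecMul, hĀ2, Matrix.vecMul_sub, Matrix.vecMul_smul,
      Matrix.vecMul_one, Matrix.smul_vecMul]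
    funext j
    simp only [Pi.sub_apply, Pi.smul_apply, smul_eq_mul, hu']
    linear_combination (- w j) * hu
  have hzero : ∀ w : Fin chevF4.rank → ZMod p, w ⬝ᵥ (Ā *ᵥ vb - u' • vb) = 0 := by
    intro w
    have h1 := hall _ (hmem w)
    rw [sub_dotProduct, ← Matrix.dotProduct_mulVec, smul_dotProduct] at h1
    rw [dotProduct_sub, dotProduct_smul]
    exact h1
  have hvec : Ā *ᵥ vb = u' • vb := by
    have h1 : Ā *ᵥ vb - u' • vb = 0 := by
      funext j
      have h2 := hzero (Pi.single j 1)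
      rw [single_one_dotProduct] at h2
      exact h2
    exact sub_eq_zero.1 h1
  obtain ⟨i, j, hij⟩ := hmin
  apply hij
  rw [← ZMod.intCast_zmod_eq_zero_iff_dvd]
  have e : ∀ m, (((A *ᵥ v) m : ℤ) : ZMod p) = u' * vb m := by
    intro m
    have h1 := congrFun (hvbar v) m
    have h2 := congrFun hvec m
    simp only [Pi.smul_apply, smul_eq_mul] at h2
    rw [← h2]
    exact h1
  push_cast
  rw [e i, e j]
  simp only [hvb]
  ring

theorem exists_eig_of_cyclo {l : ℕ} {A : Matrix (Fin l) (Fin l) ℤ} {p : ℕ} [Fact p.Prime] {q : ℕ} (hq : ¬ p ∣ q)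
    (h : cyclotomic (orderOf (q : ZMod p)) ℤ ∣ A.charpoly) : ∃ b : Fin l → ZMod p, b ≠ 0 ∧ b ∈ Eg p A (q : ZMod p) := by
  classical
  have hu : IsUnit (q : ZMod p) := isUnit_iff_ne_zero.2 (fun h => hq ((ZMod.natCast_eq_zero_iff _ _).1 h))
  have hn : 0 < orderOf (q : ZMod p) := hu.isOfFinOrder.orderOf_pos
  haveI : NeZero ((orderOf (q : ZMod p) : ℕ) : ZMod p) := by
    constructor
    intro h0
    have h1 := (ZMod.natCast_eq_zero_iff _ _).1 h0
    have hp : p.Prime := Fact.out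
    have hcop : Nat.Coprime (orderOf (q : ZMod p)) p := by
      have h2 : orderOf (q : ZMod p) ∣ p - 1 := by
        apply orderOf_dvd_of_pow_eq_one
        exact ZMod.pow_card_sub_one_eq_one (fun h => hq ((ZMod.natCast_eq_zero_iff _ _).1 h))
      have h3 := Nat.le_of_dvd (Nat.sub_pos_of_lt hp.one_lt) h2
      have h4 := Nat.le_of_dvd hn h1
      have := hp.two_le
      omega
    have h5 := Nat.Coprime.eq_one_of_dvd hcop.symm h1
    exact hp.one_lt.ne' h5
  have hμ : IsPrimitiveRoot (q : ZMod p) (orderOf (q : ZMod p)) := IsPrimitiveRoot.orderOf _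
  have h1 : (A.charpoly.map (Int.castRingHom (ZMod p))).IsRoot (q : ZMod p) := by
    obtain ⟨g, hg⟩ := h
    have h0 : (cyclotomic (orderOf (q : ZMod p)) (ZMod p)).IsRoot (q : ZMod p) := hμ.isRoot_cyclotomic hn
    rw [Polynomial.IsRoot.def] at h0
    rw [hg, Polynomial.map_mul, Polynomial.map_cyclotomic, Polynomial.IsRoot.def, Polynomial.eval_mul, h0, zero_mul]
  have h2 : (fE p A).charpoly = A.charpoly.map (Int.castRingHom (ZMod p)) := by
    have e : redT p A = (A.map (Int.castRingHom (ZMod p)))ᵀ := rfl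
    unfold fE
    rw [Matrix.charpoly_toLin', e, Matrix.charpoly_transpose, Matrix.charpoly_map]
  rw [← h2] at h1
  have h3 := (Module.End.hasEigenvalue_iff_isRoot_charpoly (fE p A) (q : ZMod p)).2 h1
  have h4 : Eg p A (q : ZMod p) ≠ ⊥ := h3
  obtain ⟨b, hb, hb0⟩ := Submodule.exists_mem_ne_zero_of_ne_bot h4
  exact ⟨b, hb0, hb⟩

/-- The relation satisfied by the matrix when the eigenspace has dimension at least two. -/
theorem quad_rel {ρ : Equiv.Perm (Fin chevF4.nroots)} (hρ : ρ ∈ hFX.Wk Set.univ) {p : ℕ} [Fact p.Prime]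
    (hpW : ¬ p ∣ ([2, 6, 8, 12] : List ℕ).prod) {q : ℕ} (hq : ¬ p ∣ q) (hk2 : Nat.totient (orderOf (q : ZMod p)) = 2)
    (hdim : 2 ≤ Module.finrank (ZMod p) ↥(Eg p (mat hFX ρ) (q : ZMod p))) :
    aeval (mat hFX ρ) (cyclotomic (orderOf (q : ZMod p)) ℤ) = 0 := by
  classical
  set A := mat hFX ρ with hAdef
  set N := orderOf ρ with hNdef
  have hN : 0 < N := orderOf_pos ρ
  have hA : A ^ N = 1 := by
    rw [hAdef, ← mat_pow hFX hρ, hNdef, pow_orderOf_eq_one, mat_one]
  have hNW : N ∣ ([2, 6, 8, 12] : List ℕ).prod := by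
    have h1 : orderOf (⟨ρ, hρ⟩ : ↥(hFX.Wk Set.univ)) ∣ Nat.card ↥(hFX.Wk Set.univ) := orderOf_dvd_natCard _
    rw [Subgroup.orderOf_mk, TF4.card_Wk] at h1
    exact h1
  have hrN : ¬ p ∣ N := fun h => hpW (h.trans hNW)
  have h1 := Cfsg.Agent.Lib.S2378Alg91.cyclotomic_pow_dvd A hN hA hrN q hq
  have hS : ∀ f ∈ Eg p A (q : ZMod p), (A.map (Int.castRingHom (ZMod p)))ᵀ *ᵥ f = (q : ZMod p) • f := by
    intro f hf
    exact mem_Eg.1 hf
  have h2 := Cfsg.Agent.Lib.S2378Alg91.finrank_le_rootMultiplicity A (q : ZMod p) _ hS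
  have h3 : cyclotomic (orderOf (q : ZMod p)) ℤ ^ 2 ∣ A.charpoly := (pow_dvd_pow _ (hdim.trans h2)).trans h1
  have hmon := (Polynomial.cyclotomic.monic (orderOf (q : ZMod p)) ℤ).pow 2
  have h4 := Polynomial.eq_of_monic_of_dvd_of_natDegree_le hmon (Matrix.charpoly_monic _) h3 (by
    rw [natDegree_charpoly, Polynomial.natDegree_pow, Polynomial.natDegree_cyclotomic, hk2])
  exact Cfsg.Agent.Lib.S2378Alg91.aeval_eq_zero_of_dvd_pow A hN hA _ (m := 2) (by norm_num) (by rw [h4])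

/-- Separation of roots by the eigenspace of dimension two. -/
theorem sep_two (W : WChecks) {ρ : Equiv.Perm (Fin chevF4.nroots)} (hρ : ρ ∈ hFX.Wk Set.univ) {p : ℕ} [Fact p.Prime] (hp2 : p ≠ 2)
    (hpW : ¬ p ∣ ([2, 6, 8, 12] : List ℕ).prod) {q : ℕ} (hq : ¬ p ∣ q)
    (hk : orderOf (q : ZMod p) = 3 ∨ orderOf (q : ZMod p) = 4 ∨ orderOf (q : ZMod p) = 6)
    (hdim : 2 ≤ Module.finrank (ZMod p) ↥(Eg p (mat hFX ρ) (q : ZMod p))) (α : Fin chevF4.nroots) :
    ∃ a ∈ Eg p (mat hFX ρ) (q : ZMod p), a ⬝ᵥ (fun j => ((rcV RootF4T.R chevF4 α j : ℤ) : ZMod p)) ≠ 0 := by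
  classical
  have hk2 : Nat.totient (orderOf (q : ZMod p)) = 2 := by
    rcases hk with h | h | h <;> rw [h] <;> decide
  have hrel := quad_rel hρ hpW hq hk2 hdim
  have hu : IsUnit (q : ZMod p) := isUnit_iff_ne_zero.2 (fun h => hq ((ZMod.natCast_eq_zero_iff _ _).1 h))
  have hn : 0 < orderOf (q : ZMod p) := hu.isOfFinOrder.orderOf_pos
  have hμ : IsPrimitiveRoot (q : ZMod p) (orderOf (q : ZMod p)) := IsPrimitiveRoot.orderOf _
  have hroot := hμ.isRoot_cyclotomic hn
  rw [← Polynomial.map_cyclotomic_int, Polynomial.IsRoot.def] at hroot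
  rcases hk with h | h | h
  · rw [h, cyc3] at hrel hroot
    simp only [map_add, map_pow, Polynomial.aeval_X, map_one] at hrel
    have hroot' : (q : ZMod p) ^ 2 + (q : ZMod p) + 1 = 0 := by
      simpa using hroot
    have hminor := W.w_minor ρ hρ (Or.inl hrel) α p Fact.out hp2
    refine sep_quad (t := -1) ?_ ?_ _ hminor
    · rw [neg_smul, one_smul]
      linear_combination (norm := noncomm_ring) hrel
    · push_cast
      linear_combination hroot'
  · rw [h, cyc4] at hrel hroot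
    simp only [map_add, map_pow, Polynomial.aeval_X, map_one] at hrel
    have hroot' : (q : ZMod p) ^ 2 + 1 = 0 := by
      simpa using hroot
    have hminor := W.w_minor ρ hρ (Or.inr (Or.inl hrel)) α p Fact.out hp2
    refine sep_quad (t := 0) ?_ ?_ _ hminor
    · rw [zero_smul]
      linear_combination (norm := noncomm_ring) hrel
    · push_cast
      linear_combination hroot'
  · rw [h, cyc6] at hrel hroot
    simp only [map_add, map_sub, map_pow, Polynomial.aeval_X, map_one] at hrel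
    have hroot' : (q : ZMod p) ^ 2 - (q : ZMod p) + 1 = 0 := by
      simpa using hroot
    have hminor := W.w_minor ρ hρ (Or.inr (Or.inr hrel)) α p Fact.out hp2
    refine sep_quad (t := 1) ?_ ?_ _ hminor
    · rw [one_smul]
      linear_combination (norm := noncomm_ring) hrel
    · push_cast
      linear_combination hroot'

end Cfsg.Agent.Lib.F4P
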