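import Cfsg.Agent.Lib.F4P.Part4

/-!
# The prime graph of `F₄(2ⁿ)`: adjacency of primes with the same order
-/

set_option autoImplicit false
set_option linter.unusedSectionVars false
set_option linter.unusedVariables false
set_option linter.unusedSimpArgs false
set_option maxRecDepth 100000

namespace Cfsg.Agent.Lib.F4P

open Cfsg Cfsg.Lie Cfsg.Agent.Lib.Chev Matrix Cfsg.Agent.Lib.ChevFix Cfsg.Agent.Lib.TwTor32 Cfsg.Agent.Lib.Syl54
open Cfsg.Agent.Lib.N65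
open Cfsg.Agent.Lib.Syl54.TF4 (hFX)
open Polynomial (cyclotomic aeval X C)

theorem filter_len2 {k : ℕ} (hk : k = 3 ∨ k = 4 ∨ k = 6) : (([2, 6, 8, 12] : List ℕ).filter (fun e => k ∣ e)).length = 2 := by
  rcases hk with rfl | rfl | rfl <;> decide

theorem filter_len1 {k : ℕ} (hk : k = 3 ∨ k = 4 ∨ k = 6 ∨ k = 8 ∨ k = 12) : 1 ≤ (([2, 6, 8, 12] : List ℕ).filter (fun e => k ∣ e)).length := by
  rcases hk with rfl | rfl | rfl | rfl | rfl <;> decide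

theorem filter_ne {k : ℕ} (hk : k = 3 ∨ k = 4 ∨ k = 6 ∨ k = 8 ∨ k = 12) : ([2, 6, 8, 12] : List ℕ).filter (fun e => k ∣ e) ≠ [] := by
  rcases hk with rfl | rfl | rfl | rfl | rfl <;> decide

theorem dvd_prod {k : ℕ} (hk : k = 3 ∨ k = 4 ∨ k = 6 ∨ k = 8 ∨ k = 12) : k ∣ ([2, 6, 8, 12] : List ℕ).prod := by
  rcases hk with rfl | rfl | rfl | rfl | rfl <;> decide

section Ext

variable {F : Type*} [Field F] [Fintype F] {K : Type*} [Field K] [Fintype K] {q : ℕ} (f : F →+* K) (σ : K ≃+* K)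

theorem exists_conj_P {p : ℕ} [Fact p.Prime] (hidx : ¬ p ∣ ((chevF4.diagonalSubgroup K).subgroupOf (chevF4.group K)).index)
    (P : Subgroup ↥(chevF4.group F)) (hP : IsPGroup p P) :
    ∃ Y ∈ chevF4.group K, ∀ x ∈ P, ∃ c : Fin chevF4.rank → Kˣ, Y⁻¹ * glM chevF4 f x.1 * Y = tor RootF4T.R chevF4 c := by
  classical
  let ιh : ↥(chevF4.group F) →* ↥(chevF4.group K) :=
    ((glM chevF4 f).comp (chevF4.group F).subtype).codRestrict (chevF4.group K) (fun x => map_group_le chevF4 f ⟨x.1, x.2, rfl⟩)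
  have hQ : IsPGroup p (P.map ιh) := by
    rintro ⟨g, x, hx, rfl⟩
    obtain ⟨k, hk⟩ := hP ⟨x, hx⟩
    refine ⟨k, ?_⟩
    apply Subtype.ext
    have h1 : x ^ p ^ k = 1 := congrArg Subtype.val hk
    show ιh x ^ p ^ k = 1
    rw [← map_pow, h1, map_one]
  obtain ⟨Y, hY, hYQ⟩ := exists_conj_torus_sub hFX hidx (P.map ιh) hQ
  refine ⟨Y, hY, ?_⟩
  intro x hx
  have hmem : ιh x ∈ P.map ιh := ⟨x, hx, rfl⟩
  have ht := hYQ (ιh x) hmem
  obtain ⟨c, hc⟩ := (hFX.mem_diagonal_iff).1 ht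
  exact ⟨c, hc⟩

/-- **Adjacency of primes with the same order of `q`.** -/
theorem adj_equal (W : WChecks) (hKq : Fintype.card K = q ^ 24) (hq : Fintype.card F = q)
    (hfσ : ∀ b, σ (f b) = f b) (hσ : ∀ x, σ x = x ^ q) (hf : ∀ a, σ a = a → ∃ b, f b = a)
    {p p' : ℕ} [Fact p.Prime] [Fact p'.Prime] (hpp : p ≠ p') (hpW : ¬ p ∣ ([2, 6, 8, 12] : List ℕ).prod)
    (hpq : ¬ p ∣ q) (hp'q : ¬ p' ∣ q)
    (hpG : p ∣ Nat.card ↥(chevF4.group F))
    (hkk : orderOf (q : ZMod p) = orderOf (q : ZMod p'))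
    (hk : orderOf (q : ZMod p) = 3 ∨ orderOf (q : ZMod p) = 4 ∨ orderOf (q : ZMod p) = 6 ∨ orderOf (q : ZMod p) = 8 ∨ orderOf (q : ZMod p) = 12) :
    ∃ x : ↥(chevF4.group F), orderOf x = p * p' := by
  classical
  have hpp' : p.Prime := Fact.out
  have hp'p : p'.Prime := Fact.out
  haveI : NeZero p := ⟨hpp'.ne_zero⟩
  have hp2 : p ≠ 2 := by
    rintro rfl
    exact hpW (by norm_num)
  have hp3 : p ≠ 3 := by
    rintro rfl
    exact hpW (by norm_num)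
  have hq0 : 0 < q := by
    have : 1 < Fintype.card F := Fintype.one_lt_card
    omega
  have hk24 : orderOf (q : ZMod p) ∣ 24 := by
    rcases hk with h | h | h | h | h <;> rw [h] <;> norm_num
  have hpQ : p ∣ Fintype.card K - 1 := by
    rw [hKq]
    exact (pow_eq_one_iff_dvd hq0 24).1 (orderOf_dvd_iff_pow_eq_one.1 hk24)
  have hp'Q : p' ∣ Fintype.card K - 1 := by
    rw [hKq]
    exact (pow_eq_one_iff_dvd hq0 24).1 (orderOf_dvd_iff_pow_eq_one.1 (hkk ▸ hk24))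
  have hidx := idx_not_dvd (K := K) hpW hpQ
  obtain ⟨P⟩ : Nonempty (Sylow p ↥(chevF4.group F)) := inferInstance
  haveI : Nontrivial ↥(P : Subgroup ↥(chevF4.group F)) := (Subgroup.nontrivial_iff_ne_bot _).2 (P.ne_bot_of_dvd_card hpG)
  obtain ⟨φ⟩ := TF4.result hq p hpq hpW hpG P
  have htors := card_torsion_lower φ
  obtain ⟨Y, hY, hYP⟩ := exists_conj_P f hidx (P : Subgroup ↥(chevF4.group F)) P.isPGroup'
  set sg := glM chevF4 (σ : K →+* K) with hsg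
  have hsgY : sg Y ∈ chevF4.group K := map_group_le chevF4 (σ : K →+* K) ⟨Y, hY, rfl⟩
  have hz : Y⁻¹ * sg Y ∈ chevF4.group K := mul_mem (inv_mem hY) hsgY
  obtain ⟨n, hn⟩ := exists_N_uniform hFX hz
  have hρ := hFX.rhoN_mem_Wk n
  set ρ := hFX.rhoN K n with hρdef
  have hconj : ∀ (x : ↥(chevF4.group F)) (c : Fin chevF4.rank → Kˣ), Y⁻¹ * glM chevF4 f x.1 * Y = tor RootF4T.R chevF4 c →
      (Y⁻¹ * sg Y) * tor RootF4T.R chevF4 (c ^ q) * (Y⁻¹ * sg Y)⁻¹ = tor RootF4T.R chevF4 c := by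
    intro x c hc
    have hfix : sg (glM chevF4 f x.1) = glM chevF4 f x.1 := Fix.fixed_of_mem σ f hfσ ⟨x.1, x.2, rfl⟩
    have hsgt : sg (tor RootF4T.R chevF4 c) = tor RootF4T.R chevF4 (c ^ q) := sg_tor σ q hFX hσ c
    rw [← hsgt, ← hc, map_mul, map_mul, map_inv, hfix]
    group
  have hnc : ∀ (x : ↥(chevF4.group F)) (c : Fin chevF4.rank → Kˣ), Y⁻¹ * glM chevF4 f x.1 * Y = tor RootF4T.R chevF4 c →
      n.1 * tor RootF4T.R chevF4 (c ^ q) * n.1⁻¹ = tor RootF4T.R chevF4 c := fun x c hc =>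
    hn _ ((hFX.mem_diagonal_iff).2 ⟨_, rfl⟩) _ ((hFX.mem_diagonal_iff).2 ⟨_, rfl⟩) (hconj x c hc)
  have hTw : ∀ (x : ↥(chevF4.group F)) (c : Fin chevF4.rank → Kˣ), Y⁻¹ * glM chevF4 f x.1 * Y = tor RootF4T.R chevF4 c →
      Tw hFX n q c := fun x c hc => (tw_iff q hFX n c).2 (hnc x c hc)
  obtain ⟨ζ, hζ⟩ := exists_zeta (K := K) hpQ
  -- the linear forms
  have hdata : ∀ x : {x : ↥(P : Subgroup ↥(chevF4.group F)) // x ^ p = 1}, ∃ (c : Fin chevF4.rank → Kˣ) (a : Fin chevF4.rank → ZMod p),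
      Y⁻¹ * glM chevF4 f x.1.1.1 * Y = tor RootF4T.R chevF4 c ∧ Spec (r := p) ζ c a ∧ a ∈ Eg p (mat hFX ρ) (q : ZMod p) := by
    intro x
    obtain ⟨c, hc⟩ := hYP x.1.1 x.1.2
    have h1 : (x.1.1 : ↥(chevF4.group F)) ^ p = 1 := congrArg Subtype.val x.2
    obtain ⟨a, ha⟩ := exists_spec hFX hζ (conj_tor_pow hc (iota_pow_one f h1))
    exact ⟨c, a, hc, ha, mem_Eg_of_spec hFX hζ ha q (hTw x.1.1 c hc)⟩
  choose cf af hcf hcs hcE using hdata
  let Ψ : {x : ↥(P : Subgroup ↥(chevF4.group F)) // x ^ p = 1} → ↥(Eg p (mat hFX ρ) (q : ZMod p)) := fun x => ⟨af x, hcE x⟩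
  have hΨ : Function.Injective Ψ := by
    intro x y hxy
    have h1 : af x = af y := congrArg Subtype.val hxy
    have h0 := hcs y
    rw [← h1] at h0
    have h2 : (tor RootF4T.R chevF4 (cf x) : GL chevF4.Idx K) = tor RootF4T.R chevF4 (cf y) :=
      tor_eq_of_spec hFX (hcs x) h0
    rw [← hcf x, ← hcf y] at h2
    have h4 : glM chevF4 f x.1.1.1 = glM chevF4 f y.1.1.1 := by
      have h5 := congrArg (fun g => Y * g * Y⁻¹) h2
      simpa [mul_assoc] using h5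
    apply Subtype.ext
    apply Subtype.ext
    apply Subtype.ext
    exact glM_injective chevF4 f h4
  -- dimensions
  have hcardE : Nat.card ↥(Eg p (mat hFX ρ) (q : ZMod p)) = p ^ Module.finrank (ZMod p) ↥(Eg p (mat hFX ρ) (q : ZMod p)) := by
    rw [Module.natCard_eq_pow_finrank (K := ZMod p), Nat.card_zmod]
  have hbE := TF4.hbd p hpW ρ hρ (q : ZMod p) (orderOf_dvd_iff_pow_eq_one.1 (dvd_prod hk)) (filter_ne hk)
  have hle : Nat.card ↥(Eg p (mat hFX ρ) (q : ZMod p)) ≤ Nat.card {x : ↥(P : Subgroup ↥(chevF4.group F)) // x ^ p = 1} := by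
    rw [hcardE]
    exact (Nat.pow_le_pow_right hpp'.pos hbE).trans htors
  have hΨs : Function.Surjective Ψ := (hΨ.bijective_of_nat_card_le hle).2
  have hdim : (([2, 6, 8, 12] : List ℕ).filter (fun e => orderOf (q : ZMod p) ∣ e)).length ≤ Module.finrank (ZMod p) ↥(Eg p (mat hFX ρ) (q : ZMod p)) := by
    have h1 := htors.trans (Nat.card_le_card_of_injective Ψ hΨ)
    rw [hcardE] at h1
    exact (Nat.pow_le_pow_iff_right hpp'.one_lt).1 h1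
  have hdim1 : 0 < Module.finrank (ZMod p) ↥(Eg p (mat hFX ρ) (q : ZMod p)) := lt_of_lt_of_le (filter_len1 hk) hdim
  obtain ⟨⟨a₀, ha₀E⟩, ha₀0⟩ := Module.finrank_pos_iff_exists_ne_zero.1 hdim1
  have ha₀ne : a₀ ≠ 0 := fun h => ha₀0 (Subtype.ext h)
  have h1dvd := cyclo_dvd' hρ hpW hpq ha₀ne ha₀E
  have hsep : ∀ α : Fin chevF4.nroots, ∃ a ∈ Eg p (mat hFX ρ) (q : ZMod p), a ⬝ᵥ (fun j => ((rcV RootF4T.R chevF4 α j : ℤ) : ZMod p)) ≠ 0 := by
    intro α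
    rcases hk with h | h | h | h | h
    · exact sep_two W hρ hp2 hpW hpq (Or.inl h) (by rw [← filter_len2 (Or.inl h)]; exact hdim) α
    · exact sep_two W hρ hp2 hpW hpq (Or.inr (Or.inl h)) (by rw [← filter_len2 (Or.inr (Or.inl h))]; exact hdim) α
    · exact sep_two W hρ hp2 hpW hpq (Or.inr (Or.inr h)) (by rw [← filter_len2 (Or.inr (Or.inr h))]; exact hdim) α
    · exact ⟨a₀, ha₀E, regular_eig W hρ hp2 ha₀ne ha₀E (relation_of_dvd (Or.inl h) h1dvd) α⟩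
    · exact ⟨a₀, ha₀E, regular_eig W hρ hp2 ha₀ne ha₀E (relation_of_dvd (Or.inr h) h1dvd) α⟩
  -- the centralizer
  set C' : Set (Fin chevF4.rank → Kˣ) := Set.range cf with hC'
  have h1C : ∀ r, r < chevF4.nroots → ∃ c ∈ C', chiT chevF4 c r ≠ 1 := by
    intro r hr
    obtain ⟨a, haE, ha⟩ := hsep ⟨r, hr⟩
    obtain ⟨x, hx⟩ := hΨs ⟨a, haE⟩
    have hax : af x = a := congrArg Subtype.val hx
    refine ⟨cf x, ⟨x, rfl⟩, ?_⟩
    have h2 := chi_of_spec hFX (hcs x) ⟨r, hr⟩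
    simp only at h2
    rw [h2, hax]
    intro h3
    exact ha ((Zp_eq_one_iff hζ).1 h3)
  have h2C : ∀ y ∈ hFX.Wk Set.univ, (∀ c ∈ C', ∀ s, chiT chevF4 c (y s) = chiT chevF4 c s) → y = 1 := by
    intro y hy hfix
    apply stab_family W hp2 hp3 (↑(Eg p (mat hFX ρ) (q : ZMod p)) : Set (Fin chevF4.rank → ZMod p)) hsep hy
    intro a haE α
    obtain ⟨x, hx⟩ := hΨs ⟨a, haE⟩
    have hax : af x = a := congrArg Subtype.val hx
    have h3 := hfix (cf x) ⟨x, rfl⟩ α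
    rw [chi_of_spec hFX (hcs x), chi_of_spec hFX (hcs x), hax] at h3
    exact Zp_inj hζ h3
  have hcop : Nat.Coprime q p := ((Nat.Prime.coprime_iff_not_dvd hpp').2 hpq).symm
  have hmG : n.1⁻¹ * (Y⁻¹ * sg Y) ∈ chevF4.group K := mul_mem (inv_mem (hFX.c.monomial_le_group n.2)) hz
  have hmc : ∀ c ∈ C', (n.1⁻¹ * (Y⁻¹ * sg Y)) * tor RootF4T.R chevF4 c = tor RootF4T.R chevF4 c * (n.1⁻¹ * (Y⁻¹ * sg Y)) := by
    rintro c ⟨x, rfl⟩
    have hpw := tor_pow_of_spec hFX hζ (hcs x)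
    apply comm_of_pow hpp'.one_lt hcop hpw
    rw [tor_pow]
    have e1 := hconj x.1.1 (cf x) (hcf x)
    have e2 := hnc x.1.1 (cf x) (hcf x)
    calc n.1⁻¹ * (Y⁻¹ * sg Y) * tor RootF4T.R chevF4 (cf x ^ q)
        = n.1⁻¹ * ((Y⁻¹ * sg Y) * tor RootF4T.R chevF4 (cf x ^ q) * (Y⁻¹ * sg Y)⁻¹) * (Y⁻¹ * sg Y) := by group
      _ = n.1⁻¹ * (n.1 * tor RootF4T.R chevF4 (cf x ^ q) * n.1⁻¹) * (Y⁻¹ * sg Y) := by rw [e1, e2]
      _ = _ := by group
  have hmT := mem_diag_of_comm_W hFX C' h1C h2C hmG hmc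
  have hYeq : sg Y = Y * (n.1 * (n.1⁻¹ * (Y⁻¹ * sg Y))) := by group
  -- the second element
  obtain ⟨b, hb0, hbEg⟩ := exists_eig_of_cyclo hp'q (hkk ▸ h1dvd)
  obtain ⟨ζ', hζ'⟩ := exists_zeta (K := K) hp'Q
  obtain ⟨c', hc'⟩ := exists_c_of_a BB hB1 hζ' b
  have hTw' : Tw hFX n q c' := tw_of_mem_Eg hFX hζ' hρ hc' q hbEg
  have hfix' := (fix_iff σ q hFX hσ n hmT hYeq c').2 hTw'
  have htT : (tor RootF4T.R chevF4 c' : GL chevF4.Idx K) ∈ chevF4.group K :=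
    hFX.c.monomial_le_group (hFX.c.diagonal_le_monomial ((hFX.mem_diagonal_iff).2 ⟨c', rfl⟩))
  have hA'G : Y * tor RootF4T.R chevF4 c' * Y⁻¹ ∈ chevF4.group K := mul_mem (mul_mem hY htT) (inv_mem hY)
  obtain ⟨s₀, hs₀, hιs₀⟩ := Fix.mem_of_fixed hFX σ f hf (fun c hc => hU c hc) ⟨_, hA'G⟩ hfix'
  have hι : glM chevF4 f s₀ = Y * tor RootF4T.R chevF4 c' * Y⁻¹ := hιs₀
  have htp : (tor RootF4T.R chevF4 c' : GL chevF4.Idx K) ^ p' = 1 := tor_pow_of_spec hFX hζ' hc'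
  have hx₁p : (⟨s₀, hs₀⟩ : ↥(chevF4.group F)) ^ p' = 1 := by
    apply Subtype.ext
    apply glM_injective chevF4 f
    show glM chevF4 f (s₀ ^ p') = glM chevF4 f 1
    rw [map_pow, hι, conj_pow, htp, map_one]
    group
  have hx₁ne : (⟨s₀, hs₀⟩ : ↥(chevF4.group F)) ≠ 1 := by
    intro h0
    have h1 : s₀ = 1 := congrArg Subtype.val h0
    rw [h1, map_one] at hι
    apply hb0
    apply a_zero_of_tor_one hFX hζ' hc'
    have h2 : tor RootF4T.R chevF4 c' = Y⁻¹ * (Y * tor RootF4T.R chevF4 c' * Y⁻¹) * Y := by group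
    rw [h2, ← hι]
    group
  -- the first element
  obtain ⟨x, hx⟩ := hΨs ⟨a₀, ha₀E⟩
  have hax : af x = a₀ := congrArg Subtype.val hx
  have hx₀p : (x.1.1 : ↥(chevF4.group F)) ^ p = 1 := congrArg Subtype.val x.2
  have hx₀ne : (x.1.1 : ↥(chevF4.group F)) ≠ 1 := by
    intro h0
    apply ha₀ne
    rw [← hax]
    apply a_zero_of_tor_one hFX hζ (hcs x)
    rw [← hcf x, h0]
    show Y⁻¹ * glM chevF4 f 1 * Y = 1
    rw [map_one]
    group
  have hcomm : (x.1.1 : ↥(chevF4.group F)) * ⟨s₀, hs₀⟩ = ⟨s₀, hs₀⟩ * x.1.1 := by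
    apply Subtype.ext
    apply glM_injective chevF4 f
    show glM chevF4 f (x.1.1.1 * s₀) = glM chevF4 f (s₀ * x.1.1.1)
    have e1 : glM chevF4 f x.1.1.1 = Y * tor RootF4T.R chevF4 (cf x) * Y⁻¹ := by
      rw [← hcf x]
      group
    have hct : (tor RootF4T.R chevF4 (cf x) : GL chevF4.Idx K) * tor RootF4T.R chevF4 c' = tor RootF4T.R chevF4 c' * tor RootF4T.R chevF4 (cf x) := by
      rw [tor_mul, mul_comm, ← tor_mul]
    rw [map_mul, map_mul, e1, hι]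
    calc Y * tor RootF4T.R chevF4 (cf x) * Y⁻¹ * (Y * tor RootF4T.R chevF4 c' * Y⁻¹)
        = Y * (tor RootF4T.R chevF4 (cf x) * tor RootF4T.R chevF4 c') * Y⁻¹ := by group
      _ = Y * (tor RootF4T.R chevF4 c' * tor RootF4T.R chevF4 (cf x)) * Y⁻¹ := by rw [hct]
      _ = _ := by group
  exact ⟨x.1.1 * ⟨s₀, hs₀⟩, order_mul_of_commute hpp' hp'p hpp hcomm (orderOf_eq_prime hx₀p hx₀ne) (orderOf_eq_prime hx₁p hx₁ne)⟩

end Ext

end Cfsg.Agent.Lib.F4P
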