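import Cfsg.Agent.Lib.F4P.Part5
import Cfsg.Agent.Lib.F4Comm

/-!
# The prime graph of `F₄(2ⁿ)`: adjacency through `A₁ × C₃`
-/

set_option autoImplicit false
set_option linter.unusedSectionVars false
set_option linter.unusedVariables false
set_option linter.unusedSimpArgs false
set_option maxRecDepth 100000

namespace Cfsg.Agent.Lib.F4P

open Cfsg Cfsg.Lie Cfsg.Agent.Lib.Chev Matrix Cfsg.Agent.Lib.ChevFix Cfsg.Agent.Lib.TwTor32 Cfsg.Agent.Lib.Syl54
open Cfsg.Agent.Lib.N65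
open Cfsg.Agent.Lib.Syl54.TF4 (hFX)
open Cfsg.Agent.Lib.Chev.OrdF4 Cfsg.Agent.Lib.Chev.OrbF4
open Polynomial (cyclotomic aeval X C)

/-- The `C₃` generated by the nodes `0, 1, 2`. -/
abbrev C3Gp (F : Type*) [Field F] : Subgroup (GL chevF4.Idx F) :=
  Subgroup.closure {g : GL chevF4.Idx F | ∃ (r : ℕ) (t : F), chevF4.InRootSub {0, 1, 2} r ∧
      (g : Matrix chevF4.Idx chevF4.Idx F) = chevF4.x F r t}

theorem C3_le_group (F : Type*) [Field F] : C3Gp F ≤ chevF4.group F := by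
  rw [C3Gp, Subgroup.closure_le]
  rintro g ⟨r, t, hr, hg⟩
  have hg' : g = hFX.c.xG r t := hFX.c.eq_xG hg
  rw [hg']
  exact hFX.c.xG_mem_group hr.1 t

theorem root_le_group (F : Type*) [Field F] {r : ℕ} (hr : r < 48) : chevF4.rootSubgroup F r ≤ chevF4.group F := by
  intro g hg
  obtain ⟨t, rfl⟩ := hFX.c.mem_rootSubgroup_iff.1 hg
  exact hFX.c.xG_mem_group hr t

theorem root_le_C3 (F : Type*) [Field F] {γ : ℕ} (h : chevF4.InRootSub {0, 1, 2} γ) : chevF4.rootSubgroup F γ ≤ C3Gp F := by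
  rw [ChevalleyDatum.rootSubgroup, C3Gp]
  apply Subgroup.closure_mono
  rintro g ⟨t, ht⟩
  exact ⟨γ, t, h, ht⟩

theorem inSub_of {γ : ℕ} (h1 : γ < 48) (h2 : (chevF4.coroot.getD γ #[]).getD 3 0 = 0) : chevF4.InRootSub {0, 1, 2} γ := by
  refine ⟨h1, ?_⟩
  intro i hi hn
  have hi' : i < 4 := hi
  have h3 : i = 3 := by
    simp only [Set.mem_insert_iff, Set.mem_singleton_iff, not_or] at hn
    omega
  subst h3
  exact h2

/-- The simple root at node `0` and its negative lie in the `C₃`. -/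
theorem sl2_le_C3 (F : Type*) [Field F] :
    chevF4.rootSubgroup F 33 ⊔ chevF4.rootSubgroup F (chevF4.neg 33) ≤ C3Gp F := by
  refine sup_le (root_le_C3 F (inSub_of (by norm_num) (by decide +kernel))) (root_le_C3 F (inSub_of (by decide +kernel) (by decide +kernel)))

section N

variable {q : ℕ}

theorem dvd_cases {e d : ℕ} (hd : d = 2 ∨ d = 6 ∨ d = 8 ∨ d = 12) (h : e ∣ d) : e = 1 ∨ e = 2 ∨ e = 3 ∨ e = 4 ∨ e = 6 ∨ e = 8 ∨ e = 12 := by
  have h0 : 0 < d := by omega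
  have h1 := Nat.le_of_dvd h0 h
  have h2 := Nat.pos_of_dvd_of_pos h h0
  have h3 : e ≤ 12 := by omega
  interval_cases e <;> rcases hd with rfl | rfl | rfl | rfl <;> omega

theorem order_cases {F : Type*} [Field F] [Fintype F] (hq : Fintype.card F = q) {r : ℕ} (hrp : r.Prime) (hrq : ¬ r ∣ q)
    (hrG : r ∣ Nat.card ↥(chevF4.group F)) :
    orderOf (q : ZMod r) = 1 ∨ orderOf (q : ZMod r) = 2 ∨ orderOf (q : ZMod r) = 3 ∨ orderOf (q : ZMod r) = 4 ∨
      orderOf (q : ZMod r) = 6 ∨ orderOf (q : ZMod r) = 8 ∨ orderOf (q : ZMod r) = 12 := by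
  have hq0 : 0 < q := by
    have : 1 < Fintype.card F := Fintype.one_lt_card
    omega
  rw [OrdF4.card_group hFX, hq] at hrG
  have key : ∃ d, (d = 2 ∨ d = 6 ∨ d = 8 ∨ d = 12) ∧ r ∣ q ^ d - 1 := by
    rcases hrp.dvd_mul.1 hrG with h | h
    · rcases hrp.dvd_mul.1 h with h | h
      · rcases hrp.dvd_mul.1 h with h | h
        · rcases hrp.dvd_mul.1 h with h | h
          · exact absurd (hrp.dvd_of_dvd_pow h) hrq
          · exact ⟨2, by norm_num, h⟩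
        · exact ⟨6, by norm_num, h⟩
      · exact ⟨8, by norm_num, h⟩
    · exact ⟨12, by norm_num, h⟩
  obtain ⟨d, hd, hdv⟩ := key
  exact dvd_cases hd (orderOf_dvd_of_pow_eq_one ((pow_eq_one_iff_dvd hq0 d).2 hdv))

theorem poin_J (q : ℕ) : hFX.poin {x | x ∈ [2, 1, 0]} q =
    (1 * q ^ 0 + 1 * q ^ 1 + 1 * q ^ 2 + 2 * q ^ 3 + 1 * q ^ 4 + 1 * q ^ 5 + 1 * q ^ 6) * ((1 * q ^ 0 + 1 * q ^ 1 + 1 * q ^ 2) * (1 * q ^ 0 + 1 * q ^ 1)) := by
  rw [hFX.poin_of_orb (j := 2) (Ls := [1, 0]) (by decide) (by simp) cm_ok ok2 q, poly2]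
  rw [hFX.poin_of_orb (j := 1) (Ls := [0]) (by decide) (by simp) cm_ok ok1 q, poly1]
  rw [hFX.poin_of_orb (j := 0) (Ls := []) (by decide) (by simp) cm_ok ok0 q, poly0]
  rw [hFX.poin_nil, mul_one]

theorem dvd_poin_J {s : ℕ} [Fact s.Prime] (h : orderOf (q : ZMod s) = 2 ∨ orderOf (q : ZMod s) = 3 ∨ orderOf (q : ZMod s) = 4 ∨ orderOf (q : ZMod s) = 6) :
    s ∣ hFX.poin {x | x ∈ [2, 1, 0]} q := by
  rw [poin_J, ← ZMod.natCast_eq_zero_iff]
  push_cast
  have hp := pow_orderOf_eq_one (q : ZMod s)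
  have hmin : ∀ m, 0 < m → m < orderOf (q : ZMod s) → (q : ZMod s) ^ m ≠ 1 := fun m h0 h1 => pow_ne_one_of_lt_orderOf h0.ne' h1
  rcases h with h | h | h | h <;> rw [h] at hp hmin
  · have h1 := hmin 1 (by norm_num) (by norm_num)
    rw [pow_one] at h1
    have h2 : ((q : ZMod s) - 1) * ((q : ZMod s) + 1) = 0 := by linear_combination hp
    have h3 : (q : ZMod s) + 1 = 0 := by
      rcases mul_eq_zero.1 h2 with h4 | h4
      · exact absurd (sub_eq_zero.1 h4) h1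
      · exact h4
    linear_combination ((q : ZMod s) ^ 6 + (q : ZMod s) ^ 5 + (q : ZMod s) ^ 4 + 2 * (q : ZMod s) ^ 3 + (q : ZMod s) ^ 2 + (q : ZMod s) + 1) * ((q : ZMod s) ^ 2 + (q : ZMod s) + 1) * h3
  · have h1 := hmin 1 (by norm_num) (by norm_num)
    rw [pow_one] at h1
    have h2 : ((q : ZMod s) - 1) * ((q : ZMod s) ^ 2 + (q : ZMod s) + 1) = 0 := by linear_combination hp
    have h3 : (q : ZMod s) ^ 2 + (q : ZMod s) + 1 = 0 := by
      rcases mul_eq_zero.1 h2 with h4 | h4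
      · exact absurd (sub_eq_zero.1 h4) h1
      · exact h4
    linear_combination ((q : ZMod s) ^ 6 + (q : ZMod s) ^ 5 + (q : ZMod s) ^ 4 + 2 * (q : ZMod s) ^ 3 + (q : ZMod s) ^ 2 + (q : ZMod s) + 1) * ((q : ZMod s) + 1) * h3
  · have h1 := hmin 2 (by norm_num) (by norm_num)
    have h2 : ((q : ZMod s) ^ 2 - 1) * ((q : ZMod s) ^ 2 + 1) = 0 := by linear_combination hp
    have h3 : (q : ZMod s) ^ 2 + 1 = 0 := by
      rcases mul_eq_zero.1 h2 with h4 | h4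
      · exact absurd (sub_eq_zero.1 h4) h1
      · exact h4
    linear_combination (((q : ZMod s) + 1) * ((q : ZMod s) ^ 3 + 1) * (((q : ZMod s) ^ 2 + (q : ZMod s) + 1) * ((q : ZMod s) + 1))) * h3
  · have h1 := hmin 3 (by norm_num) (by norm_num)
    have h2 : ((q : ZMod s) ^ 3 - 1) * ((q : ZMod s) ^ 3 + 1) = 0 := by linear_combination hp
    have h3 : (q : ZMod s) ^ 3 + 1 = 0 := by
      rcases mul_eq_zero.1 h2 with h4 | h4
      · exact absurd (sub_eq_zero.1 h4) h1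
      · exact h4
    linear_combination (((q : ZMod s) + 1) * ((q : ZMod s) ^ 2 + 1) * (((q : ZMod s) ^ 2 + (q : ZMod s) + 1) * ((q : ZMod s) + 1))) * h3

end N

section Adj

variable {F : Type*} [Field F] [Fintype F]

/-- The form in which the result of the Levi computation is used. -/
def LeviStmt (F : Type*) [Field F] [Fintype F] : Prop :=
  ∀ (s : ℕ) [Fact s.Prime], ¬ s ∣ Fintype.card F → ¬ s ∣ Fintype.card F - 1 → s ∣ hFX.poin {x | x ∈ [2, 1, 0]} (Fintype.card F) →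
    ∃ y : GL chevF4.Idx F, orderOf y = s ∧ y ∈ C3Gp F

/-- Elements in the `C₃` of prime order. -/
theorem exists_C3_elt (hL : LeviStmt F) (h2 : (2 : F) = 0) {s : ℕ} [Fact s.Prime] (hsq : ¬ s ∣ Fintype.card F)
    (h : orderOf ((Fintype.card F : ℕ) : ZMod s) = 1 ∨ orderOf ((Fintype.card F : ℕ) : ZMod s) = 2 ∨ orderOf ((Fintype.card F : ℕ) : ZMod s) = 3 ∨
      orderOf ((Fintype.card F : ℕ) : ZMod s) = 4 ∨ orderOf ((Fintype.card F : ℕ) : ZMod s) = 6) :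
    ∃ y : GL chevF4.Idx F, orderOf y = s ∧ y ∈ C3Gp F := by
  have hq0 : 0 < Fintype.card F := Fintype.card_pos
  rcases h with h | h | h | h | h
  · have h4 : s ∣ Fintype.card F ^ 2 - 1 := (pow_eq_one_iff_dvd hq0 2).1 (orderOf_dvd_iff_pow_eq_one.1 (by rw [h]; norm_num))
    obtain ⟨z, hz, hzm⟩ := Cfsg.Agent.Lib.F4Comm.sl2_elt (F := F) h2 (γ := 33) (by norm_num) (p := s) (Dvd.dvd.mul_left h4 _)
    exact ⟨z, hz, sl2_le_C3 F hzm⟩
  · have h4 : s ∣ Fintype.card F ^ 2 - 1 := (pow_eq_one_iff_dvd hq0 2).1 (orderOf_dvd_iff_pow_eq_one.1 (by rw [h]))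
    obtain ⟨z, hz, hzm⟩ := Cfsg.Agent.Lib.F4Comm.sl2_elt (F := F) h2 (γ := 33) (by norm_num) (p := s) (Dvd.dvd.mul_left h4 _)
    exact ⟨z, hz, sl2_le_C3 F hzm⟩
  all_goals
    refine hL s hsq ?_ (dvd_poin_J (by omega))
    intro h5
    have h6 := (pow_eq_one_iff_dvd (r := s) hq0 1).2 (by simpa using h5)
    have h7 := orderOf_dvd_of_pow_eq_one h6
    rw [h] at h7
    omega

/-- **Adjacency through `A₁ × C₃`.** -/
theorem adj_sl2 (hL : LeviStmt F) (h2 : (2 : F) = 0) {p s : ℕ} [Fact p.Prime] [Fact s.Prime] (hps : p ≠ s)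
    (hp : p ∣ Fintype.card F * (Fintype.card F ^ 2 - 1)) (hsq : ¬ s ∣ Fintype.card F)
    (h : orderOf ((Fintype.card F : ℕ) : ZMod s) = 1 ∨ orderOf ((Fintype.card F : ℕ) : ZMod s) = 2 ∨ orderOf ((Fintype.card F : ℕ) : ZMod s) = 3 ∨
      orderOf ((Fintype.card F : ℕ) : ZMod s) = 4 ∨ orderOf ((Fintype.card F : ℕ) : ZMod s) = 6) :
    ∃ x : ↥(chevF4.group F), orderOf x = p * s := by
  obtain ⟨z, hz, hzm⟩ := Cfsg.Agent.Lib.F4Comm.sl2_elt (F := F) h2 (γ := 47) (by norm_num) hp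
  obtain ⟨y, hy, hym⟩ := exists_C3_elt hL h2 hsq h
  have hc := Cfsg.Agent.Lib.F4Comm.beta_comm hym hzm
  have hzG : z ∈ chevF4.group F := by
    have h1 : chevF4.rootSubgroup F 47 ⊔ chevF4.rootSubgroup F (chevF4.neg 47) ≤ chevF4.group F :=
      sup_le (root_le_group F (by norm_num)) (root_le_group F (by decide +kernel))
    exact h1 hzm
  have hyG : y ∈ chevF4.group F := C3_le_group F hym
  refine ⟨⟨z * y, mul_mem hzG hyG⟩, ?_⟩
  rw [Subgroup.orderOf_mk]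
  exact order_mul_of_commute Fact.out Fact.out hps hc.symm hz hy

end Adj

end Cfsg.Agent.Lib.F4P
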