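import Cfsg.Agent.Lib.F4P.Part6

/-!
# The prime graph of `F₄(2ⁿ)`: the criterion, from the finite checks
-/

set_option autoImplicit false
set_option linter.unusedSectionVars false
set_option linter.unusedVariables false
set_option linter.unusedSimpArgs false
set_option maxRecDepth 100000

namespace Cfsg.Agent.Lib.F4P

open Cfsg Cfsg.Lie Cfsg.Agent.Lib.Chev Matrix Cfsg.Agent.Lib.ChevFix Cfsg.Agent.Lib.TwTor32 Cfsg.Agent.Lib.Syl54
open Cfsg.Agent.Lib.N65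
open Cfsg.Agent.Lib.Syl54.TF4 (hFX)

section Main

variable {F : Type*} [Field F] [Fintype F]

theorem two_eq_zero_of_card {n : ℕ} (hn : 1 ≤ n) (hF : Fintype.card F = 2 ^ n) : (2 : F) = 0 := by
  have h : ((Fintype.card F : ℕ) : F) = 0 := FiniteField.cast_card_eq_zero F
  rw [hF] at h
  push_cast at h
  exact pow_eq_zero_iff (by omega) |>.1 h

theorem not_dvd_card {n : ℕ} (hF : Fintype.card F = 2 ^ n) {p : ℕ} (hp : p.Prime) (hp2 : p ≠ 2) : ¬ p ∣ Fintype.card F := by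
  rw [hF]
  intro h
  exact hp2 ((Nat.prime_dvd_prime_iff_eq hp Nat.prime_two).1 (hp.dvd_of_dvd_pow h))

theorem card_mod3 {n : ℕ} (hF : Fintype.card F = 2 ^ n) : ((Fintype.card F : ℕ) : ZMod 3) ^ 2 = 1 := by
  rw [hF]
  push_cast
  rw [← pow_mul, mul_comm, pow_mul]
  have : (2 : ZMod 3) ^ 2 = 1 := by decide
  rw [this, one_pow]

theorem ne_three_of_order {n : ℕ} (hF : Fintype.card F = 2 ^ n) {r : ℕ} (h : orderOf ((Fintype.card F : ℕ) : ZMod r) ≠ 1)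
    (h' : orderOf ((Fintype.card F : ℕ) : ZMod r) ≠ 2) : r ≠ 3 := by
  rintro rfl
  have h1 := orderOf_dvd_of_pow_eq_one (card_mod3 hF)
  have h2 := Nat.le_of_dvd (by norm_num) h1
  have h3 := Nat.pos_of_dvd_of_pos h1 (by norm_num)
  omega

/-- **The prime `2`.** -/
theorem no_elt_two (W : WChecks) (hL : LeviStmt F) {n : ℕ} (hn : 1 ≤ n) (hF : Fintype.card F = 2 ^ n) {s : ℕ} (hs : s.Prime) (hs2 : s ≠ 2)
    (hsG : s ∣ Nat.card ↥(chevF4.group F)) :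
    (¬ ∃ x : ↥(chevF4.group F), orderOf x = 2 * s) ↔
      (orderOf ((Fintype.card F : ℕ) : ZMod s) = 8 ∨ orderOf ((Fintype.card F : ℕ) : ZMod s) = 12) := by
  classical
  haveI : Fact s.Prime := ⟨hs⟩
  haveI : Fact (Nat.Prime 2) := ⟨Nat.prime_two⟩
  have hsq := not_dvd_card hF hs hs2
  have hcases := order_cases (F := F) rfl hs hsq hsG
  have h2F := two_eq_zero_of_card hn hF
  have hq2 : 2 ∣ Fintype.card F := by
    rw [hF]
    exact dvd_pow_self 2 (by omega)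
  constructor
  · intro hno
    by_contra hnot
    apply hno
    exact adj_sl2 hL h2F hs2.symm (Dvd.dvd.mul_right hq2 _) hsq (by omega)
  · rintro hl ⟨x, hx⟩
    obtain ⟨K, i1, i2, f, σ, hKq, hfσ, hσ, hf⟩ := exists_ext F (q := Fintype.card F) rfl
    letI := i1
    letI := i2
    obtain ⟨hu, hv⟩ := split_order Nat.prime_two hs hx
    have hcomm : x ^ s * x ^ 2 = x ^ 2 * x ^ s := ((Commute.refl x).pow_pow s 2).eq
    have hs3 : s ≠ 3 := ne_three_of_order hF (by omega) (by omega)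
    have hsW := hs1152 hs hs2 hs3
    have hq0 : 0 < Fintype.card F := Fintype.card_pos
    have hsQ : s ∣ Fintype.card K - 1 := by
      rw [hKq]
      refine (pow_eq_one_iff_dvd hq0 24).1 (orderOf_dvd_iff_pow_eq_one.1 ?_)
      rcases hl with h | h <;> rw [h] <;> norm_num
    exact nonadj_small f σ W hKq rfl hq2 (card_mod3 hF) hfσ hσ (Or.inl rfl) hsW hsQ hsq hu hv hcomm hl

/-- **Non-adjacency of odd primes.** -/
theorem nonadj_odd (W : WChecks) {n : ℕ} (hn : 1 ≤ n) (hF : Fintype.card F = 2 ^ n) {r s : ℕ} (hr : r.Prime) (hs : s.Prime)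
    (hr2 : r ≠ 2) (hs2 : s ≠ 2) (hrG : r ∣ Nat.card ↥(chevF4.group F)) (hsG : s ∣ Nat.card ↥(chevF4.group F))
    (hlt : orderOf ((Fintype.card F : ℕ) : ZMod r) < orderOf ((Fintype.card F : ℕ) : ZMod s))
    (hbad : orderOf ((Fintype.card F : ℕ) : ZMod s) = 8 ∨ orderOf ((Fintype.card F : ℕ) : ZMod s) = 12 ∨
      (orderOf ((Fintype.card F : ℕ) : ZMod s) = 6 ∧ (orderOf ((Fintype.card F : ℕ) : ZMod r) = 3 ∨ orderOf ((Fintype.card F : ℕ) : ZMod r) = 4)) ∨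
      (orderOf ((Fintype.card F : ℕ) : ZMod s) = 4 ∧ orderOf ((Fintype.card F : ℕ) : ZMod r) = 3))
    (x : ↥(chevF4.group F)) (hx : orderOf x = r * s) : False := by
  classical
  haveI : Fact s.Prime := ⟨hs⟩
  haveI : Fact r.Prime := ⟨hr⟩
  have hsq := not_dvd_card hF hs hs2
  have hrq := not_dvd_card hF hr hr2
  have hcs := order_cases (F := F) rfl hs hsq hsG
  have hcr := order_cases (F := F) rfl hr hrq hrG
  obtain ⟨K, i1, i2, f, σ, hKq, hfσ, hσ, hf⟩ := exists_ext F (q := Fintype.card F) rfl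
  letI := i1
  letI := i2
  obtain ⟨hu, hv⟩ := split_order hr hs hx
  have hcomm : x ^ s * x ^ r = x ^ r * x ^ s := ((Commute.refl x).pow_pow s r).eq
  have hs3 : s ≠ 3 := ne_three_of_order hF (by omega) (by omega)
  have hsW := hs1152 hs hs2 hs3
  have hq0 : 0 < Fintype.card F := Fintype.card_pos
  have hsQ : s ∣ Fintype.card K - 1 := by
    rw [hKq]
    refine (pow_eq_one_iff_dvd hq0 24).1 (orderOf_dvd_iff_pow_eq_one.1 ?_)
    rcases hcs with h | h | h | h | h | h | h <;> rw [h] <;> norm_num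
  by_cases hr3 : r = 3
  · subst hr3
    have h1 := orderOf_dvd_of_pow_eq_one (card_mod3 hF)
    have h2 := Nat.le_of_dvd (by norm_num) h1
    have hl : orderOf ((Fintype.card F : ℕ) : ZMod s) = 8 ∨ orderOf ((Fintype.card F : ℕ) : ZMod s) = 12 := by omega
    have hq2 : 2 ∣ Fintype.card F := by
      rw [hF]
      exact dvd_pow_self 2 (by omega)
    exact nonadj_small f σ W hKq rfl hq2 (card_mod3 hF) hfσ hσ (Or.inr rfl) hsW hsQ hsq hu hv hcomm hl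
  · have hrW := hs1152 hr hr2 hr3
    have hrQ : r ∣ Fintype.card K - 1 := by
      rw [hKq]
      refine (pow_eq_one_iff_dvd hq0 24).1 (orderOf_dvd_iff_pow_eq_one.1 ?_)
      rcases hcr with h | h | h | h | h | h | h <;> rw [h] <;> norm_num
    exact nonadj_big f σ W rfl hfσ hσ hrW hsW hrQ hsQ hrq hsq hu hv hcomm hlt.ne hbad

/-- **Adjacency of odd primes.** -/
theorem adj_odd (W : WChecks) (hL : LeviStmt F) {n : ℕ} (hn : 1 ≤ n) (hF : Fintype.card F = 2 ^ n) {r s : ℕ} (hr : r.Prime) (hs : s.Prime) (hrs : r ≠ s)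
    (hr2 : r ≠ 2) (hs2 : s ≠ 2) (hrG : r ∣ Nat.card ↥(chevF4.group F)) (hsG : s ∣ Nat.card ↥(chevF4.group F))
    (hc : (orderOf ((Fintype.card F : ℕ) : ZMod r) = orderOf ((Fintype.card F : ℕ) : ZMod s) ∧
        (orderOf ((Fintype.card F : ℕ) : ZMod r) = 3 ∨ orderOf ((Fintype.card F : ℕ) : ZMod r) = 4 ∨ orderOf ((Fintype.card F : ℕ) : ZMod r) = 6 ∨ orderOf ((Fintype.card F : ℕ) : ZMod r) = 8 ∨ orderOf ((Fintype.card F : ℕ) : ZMod r) = 12)) ∨
      ((orderOf ((Fintype.card F : ℕ) : ZMod r) = 1 ∨ orderOf ((Fintype.card F : ℕ) : ZMod r) = 2) ∧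
        (orderOf ((Fintype.card F : ℕ) : ZMod s) = 1 ∨ orderOf ((Fintype.card F : ℕ) : ZMod s) = 2 ∨ orderOf ((Fintype.card F : ℕ) : ZMod s) = 3 ∨ orderOf ((Fintype.card F : ℕ) : ZMod s) = 4 ∨ orderOf ((Fintype.card F : ℕ) : ZMod s) = 6))) :
    ∃ x : ↥(chevF4.group F), orderOf x = r * s := by
  classical
  haveI : Fact s.Prime := ⟨hs⟩
  haveI : Fact r.Prime := ⟨hr⟩
  have hsq := not_dvd_card hF hs hs2
  have hrq := not_dvd_card hF hr hr2
  have h2F := two_eq_zero_of_card hn hF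
  have hq0 : 0 < Fintype.card F := Fintype.card_pos
  rcases hc with ⟨hkk, hk⟩ | ⟨hk, hl⟩
  · obtain ⟨K, i1, i2, f, σ, hKq, hfσ, hσ, hf⟩ := exists_ext F (q := Fintype.card F) rfl
    letI := i1
    letI := i2
    have hr3 : r ≠ 3 := ne_three_of_order hF (by omega) (by omega)
    exact adj_equal f σ W hKq rfl hfσ hσ hf hrs (hs1152 hr hr2 hr3) hrq hsq hrG hkk hk
  · have hp : r ∣ Fintype.card F * (Fintype.card F ^ 2 - 1) := by
      apply Dvd.dvd.mul_left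
      refine (pow_eq_one_iff_dvd hq0 2).1 (orderOf_dvd_iff_pow_eq_one.1 ?_)
      rcases hk with h | h <;> rw [h] <;> norm_num
    exact adj_sl2 hL h2F hrs hp hsq hl

theorem arith_case {k l : ℕ} (hk : k = 1 ∨ k = 2 ∨ k = 3 ∨ k = 4 ∨ k = 6 ∨ k = 8 ∨ k = 12)
    (hl : l = 1 ∨ l = 2 ∨ l = 3 ∨ l = 4 ∨ l = 6 ∨ l = 8 ∨ l = 12)
    (hnot : ¬ ((k < l ∧ ((l = 8 ∨ l = 12) ∨ (l = 6 ∧ (k = 3 ∨ k = 4)) ∨ (l = 4 ∧ k = 3))) ∨
      (l < k ∧ ((k = 8 ∨ k = 12) ∨ (k = 6 ∧ (l = 3 ∨ l = 4)) ∨ (k = 4 ∧ l = 3))))) :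
    ((k = l ∧ (k = 3 ∨ k = 4 ∨ k = 6 ∨ k = 8 ∨ k = 12)) ∨ ((k = 1 ∨ k = 2) ∧ (l = 1 ∨ l = 2 ∨ l = 3 ∨ l = 4 ∨ l = 6))) ∨
      ((l = 1 ∨ l = 2) ∧ (k = 1 ∨ k = 2 ∨ k = 3 ∨ k = 4 ∨ k = 6)) := by
  rcases hk with rfl | rfl | rfl | rfl | rfl | rfl | rfl <;> rcases hl with rfl | rfl | rfl | rfl | rfl | rfl | rfl <;>
    first
      | decide
      | exact absurd (by decide) hnot

/-- **The criterion.** -/
theorem criterion (W : WChecks) (hL : LeviStmt F) (n : ℕ) (hn : 1 ≤ n) (hF : Fintype.card F = 2 ^ n)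
    (r s : ℕ) (hr : r.Prime) (hs : s.Prime) (hrs : r ≠ s) (hrG : r ∣ Nat.card ↥(Cfsg.Lie.chevF4.group F)) (hsG : s ∣ Nat.card ↥(Cfsg.Lie.chevF4.group F)) :
    (¬ ∃ x : ↥(Cfsg.Lie.chevF4.group F), orderOf x = r * s) ↔
      ((r = 2 ∧ orderOf ((Fintype.card F : ℕ) : ZMod s) ∈ ({8, 12} : Finset ℕ)) ∨ (s = 2 ∧ orderOf ((Fintype.card F : ℕ) : ZMod r) ∈ ({8, 12} : Finset ℕ)) ∨
       (r ≠ 2 ∧ s ≠ 2 ∧
         ((orderOf ((Fintype.card F : ℕ) : ZMod r) < orderOf ((Fintype.card F : ℕ) : ZMod s) ∧ (orderOf ((Fintype.card F : ℕ) : ZMod s) ∈ ({8, 12} : Finset ℕ) ∨ (orderOf ((Fintype.card F : ℕ) : ZMod s) = 6 ∧ orderOf ((Fintype.card F : ℕ) : ZMod r) ∈ ({3, 4} : Finset ℕ)) ∨ (orderOf ((Fintype.card F : ℕ) : ZMod s) = 4 ∧ orderOf ((Fintype.card F : ℕ) : ZMod r) = 3))) ∨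
          (orderOf ((Fintype.card F : ℕ) : ZMod s) < orderOf ((Fintype.card F : ℕ) : ZMod r) ∧ (orderOf ((Fintype.card F : ℕ) : ZMod r) ∈ ({8, 12} : Finset ℕ) ∨ (orderOf ((Fintype.card F : ℕ) : ZMod r) = 6 ∧ orderOf ((Fintype.card F : ℕ) : ZMod s) ∈ ({3, 4} : Finset ℕ)) ∨ (orderOf ((Fintype.card F : ℕ) : ZMod r) = 4 ∧ orderOf ((Fintype.card F : ℕ) : ZMod s) = 3)))))) := by
  classical
  simp only [Finset.mem_insert, Finset.mem_singleton]
  by_cases hr2 : r = 2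
  · subst hr2
    have hs2 : s ≠ 2 := fun h => hrs h.symm
    rw [no_elt_two W hL hn hF hs hs2 hsG]
    constructor
    · intro h
      exact Or.inl ⟨rfl, h⟩
    · rintro (⟨-, h⟩ | ⟨h, -⟩ | ⟨h, -⟩)
      · exact h
      · exact absurd h hs2
      · exact absurd rfl h
  by_cases hs2 : s = 2
  · subst hs2
    rw [mul_comm r 2, no_elt_two W hL hn hF hr hr2 hrG]
    constructor
    · intro h
      exact Or.inr (Or.inl ⟨rfl, h⟩)
    · rintro (⟨h, -⟩ | ⟨-, h⟩ | ⟨-, h, -⟩)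
      · exact absurd h hr2
      · exact h
      · exact absurd rfl h
  have hsq := not_dvd_card hF hs hs2
  have hrq := not_dvd_card hF hr hr2
  have hcs := order_cases (F := F) rfl hs hsq hsG
  have hcr := order_cases (F := F) rfl hr hrq hrG
  constructor
  · intro hno
    refine Or.inr (Or.inr ⟨hr2, hs2, ?_⟩)
    by_contra hnot
    apply hno
    rcases arith_case hcr hcs hnot with h1 | h3
    · exact adj_odd W hL hn hF hr hs hrs hr2 hs2 hrG hsG h1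
    · obtain ⟨y, hy⟩ := adj_odd W hL hn hF hs hr hrs.symm hs2 hr2 hsG hrG (Or.inr h3)
      exact ⟨y, by rw [hy, mul_comm]⟩
  · rintro (⟨h, -⟩ | ⟨h, -⟩ | ⟨-, -, ⟨hlt, hb⟩ | ⟨hlt, hb⟩⟩)
    · exact absurd h hr2
    · exact absurd h hs2
    · rintro ⟨x, hx⟩
      refine nonadj_odd W hn hF hr hs hr2 hs2 hrG hsG hlt ?_ x hx
      rcases hb with (h | h) | ⟨h, h'⟩ | ⟨h, h'⟩
      · exact Or.inl h
      · exact Or.inr (Or.inl h)
      · exact Or.inr (Or.inr (Or.inl ⟨h, h'⟩))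
      · exact Or.inr (Or.inr (Or.inr ⟨h, h'⟩))
    · rintro ⟨x, hx⟩
      refine nonadj_odd W hn hF hs hr hs2 hr2 hsG hrG hlt ?_ x (by rw [hx, mul_comm])
      rcases hb with (h | h) | ⟨h, h'⟩ | ⟨h, h'⟩
      · exact Or.inl h
      · exact Or.inr (Or.inl h)
      · exact Or.inr (Or.inr (Or.inl ⟨h, h'⟩))
      · exact Or.inr (Or.inr (Or.inr ⟨h, h'⟩))

end Main

end Cfsg.Agent.Lib.F4P
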