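import Cfsg.Agent.Lib.N65.Grow
import Cfsg.Agent.Lib.S2378Alg91
import Cfsg.Agent.Lib.Syl54.Main
import Cfsg.Agent.Lib.Syl54.TF4

/-!
# Tools for the prime graph of `F₄(2ⁿ)`
-/

set_option autoImplicit false
set_option linter.unusedSectionVars false
set_option linter.unusedVariables false
set_option linter.unusedSimpArgs false
set_option maxRecDepth 100000

namespace Cfsg.Agent.Lib.F4P

open Cfsg Cfsg.Lie Cfsg.Agent.Lib.Chev Matrix Cfsg.Agent.Lib.ChevFix Cfsg.Agent.Lib.TwTor32 Cfsg.Agent.Lib.Syl54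
open Cfsg.Agent.Lib.N65
open Cfsg.Agent.Lib.Syl54.TF4 (hFX)
open Polynomial (cyclotomic)

def BB : Fin chevF4.rank → Fin chevF4.rank → ℤ := (![![2, 3, 2, 1], ![3, 6, 4, 2], ![4, 8, 6, 3], ![2, 4, 3, 2]] : Fin 4 → Fin 4 → ℤ)

theorem hB1 : ∀ k j : Fin chevF4.rank, ∑ i : Fin chevF4.rank, BB i k * chevF4.cartan i (chevF4.simple j) = if j = k then 1 else 0 := by
  decide +kernel

theorem hB2 : ∀ k i : Fin chevF4.rank, ∑ j : Fin chevF4.rank, BB k j * chevF4.cartan i (chevF4.simple j) = if i = k then 1 else 0 := by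
  decide +kernel

theorem hU {K : Type*} [Field K] (c : Fin chevF4.rank → Kˣ) (hc : ∀ j < chevF4.rank, cartanMap chevF4 c j = 1) : c = 1 :=
  eq_one_of_cartanMap BB hB2 hc

/-- A `p`-element acting on cosets of a subgroup of index prime to `p` has a fixed point. -/
theorem conj_of_index {M : Type*} [Group M] [Finite M] (H : Subgroup M) {p : ℕ} [Fact p.Prime] (hidx : ¬ p ∣ H.index)
    {z : M} (hz : z ^ p = 1) : ∃ m : M, m⁻¹ * z * m ∈ H := by
  classical
  have hQ : IsPGroup p (Subgroup.zpowers z) := by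
    rintro ⟨_, n, rfl⟩
    refine ⟨1, Subtype.ext ?_⟩
    show (z ^ n) ^ p ^ 1 = 1
    rw [pow_one, ← zpow_natCast, ← _root_.zpow_mul, mul_comm, _root_.zpow_mul, zpow_natCast, hz, _root_.one_zpow]
  have hc := IsPGroup.card_modEq_card_fixedPoints (p := p) hQ (M ⧸ H)
  have hne : (MulAction.fixedPoints (Subgroup.zpowers z) (M ⧸ H)).Nonempty := by
    by_contra h0
    rw [Set.not_nonempty_iff_eq_empty] at h0
    have h1 : Nat.card (MulAction.fixedPoints (Subgroup.zpowers z) (M ⧸ H)) = 0 := by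
      rw [h0]
      simp
    rw [h1] at hc
    apply hidx
    have := (Nat.modEq_zero_iff_dvd).1 hc
    rw [Subgroup.index]
    exact this
  obtain ⟨a, ha⟩ := hne
  obtain ⟨y, rfl⟩ := QuotientGroup.mk_surjective a
  refine ⟨y, ?_⟩
  have h1 := ha ⟨z, Subgroup.mem_zpowers z⟩
  have h2 : ((z * y : M) : M ⧸ H) = (y : M ⧸ H) := h1
  have h3 := QuotientGroup.eq.1 h2
  have h4 := H.inv_mem h3
  have e : ((z * y)⁻¹ * y)⁻¹ = y⁻¹ * z * y := by group
  rwa [e] at h4

section Gen

variable {T : Tabs} {X : Extra} {R : RootTab} {D : ChevalleyDatum} {K : Type*} [Field K] [Fintype K]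

/-- A `p`-element of the centralizer of an element of the torus is conjugate into the torus in the centralizer,
if `p` does not divide the index of the torus. -/
theorem conj_central (hF : Full T X R D) {p : ℕ} [Fact p.Prime]
    (hidx : ¬ p ∣ ((D.diagonalSubgroup K).subgroupOf (D.group K)).index)
    {t : GL D.Idx K} (ht : t ∈ D.diagonalSubgroup K) {z : GL D.Idx K} (hz : z ∈ D.group K) (hzt : z * t = t * z)
    (hzp : z ^ p = 1) : ∃ m ∈ D.group K, m * t = t * m ∧ m⁻¹ * z * m ∈ D.diagonalSubgroup K := by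
  classical
  haveI : Finite (GL D.Idx K) := inferInstance
  let M : Subgroup (GL D.Idx K) := D.group K ⊓ Subgroup.centralizer {t}
  have hMmem : ∀ g : GL D.Idx K, g ∈ M ↔ g ∈ D.group K ∧ g * t = t * g := by
    intro g
    rw [Subgroup.mem_inf, Subgroup.mem_centralizer_singleton_iff]
  have hTM : D.diagonalSubgroup K ≤ M := by
    intro p hp
    exact (hMmem p).2 ⟨hF.c.monomial_le_group (hF.c.diagonal_le_monomial hp), diag_comm hF hp ht⟩
  have hMG : M ≤ D.group K := inf_le_left
  have h1 : (D.diagonalSubgroup K).relIndex M * M.relIndex (D.group K) = (D.diagonalSubgroup K).relIndex (D.group K) :=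
    Subgroup.relIndex_mul_relIndex _ _ _ hTM hMG
  have hidx' : ¬ p ∣ ((D.diagonalSubgroup K).subgroupOf M).index := by
    intro h
    apply hidx
    show p ∣ (D.diagonalSubgroup K).relIndex (D.group K)
    rw [← h1]
    exact Dvd.dvd.mul_right h _
  obtain ⟨m, hm⟩ := conj_of_index ((D.diagonalSubgroup K).subgroupOf M) hidx' (z := ⟨z, (hMmem z).2 ⟨hz, hzt⟩⟩)
    (Subtype.ext hzp)
  have h2 := (hMmem m.1).1 m.2
  exact ⟨m.1, h2.1, h2.2, Subgroup.mem_subgroupOf.1 hm⟩

/-- The linear form on the lattice attached to a twisted element of the torus of prime order. -/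
theorem exists_eig (hF : Full T X R D) {ρ : Equiv.Perm (Fin D.nroots)} {r : ℕ} [Fact r.Prime] {ζ : Kˣ} (hζ : orderOf ζ = r)
    {c : Fin D.rank → Kˣ} (hc : (tor R D c : GL D.Idx K) ^ r = 1) (hne : (tor R D c : GL D.Idx K) ≠ 1) (q : ℕ)
    (htw : ∀ s : Fin D.nroots, chiT D c (ρ s) = chiT D c s ^ q) :
    ∃ a : Fin D.rank → ZMod r, a ≠ 0 ∧ a ∈ Eg r (mat hF ρ) (q : ZMod r) ∧
      ∀ s s' : Fin D.nroots, chiT D c s = chiT D c s' ↔
        a ⬝ᵥ (fun j => ((rcV R D s j : ℤ) : ZMod r)) = a ⬝ᵥ (fun j => ((rcV R D s' j : ℤ) : ZMod r)) := by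
  classical
  obtain ⟨a, ha⟩ := exists_log hF hζ hc
  have hchi : ∀ s : Fin D.nroots, chiT D c s = Xc c (rcV R D s) := fun s => (Xc_rc hF c s.2).symm
  refine ⟨a, ?_, ?_, ?_⟩
  · rintro rfl
    apply hne
    have h1 : ∀ s : Fin D.nroots, chiT D c s = chiT D (1 : Fin D.rank → Kˣ) s := by
      intro s
      rw [chiT_one'', hchi]
      have h2 := ((ha (rcV R D s) 0).1).2 (by simp)
      rw [h2, Xc_zero]
    rw [tor_eq_of_chi hF h1]
    exact tor_one _ _
  · rw [mem_Eg]
    funext j
    have h1 := htw (hF.pF j)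
    rw [hchi, hchi] at h1
    have h2 := ((ha _ _).2 q).1 h1
    have e1 : (fun i => ((rcV R D (hF.pF j) i : ℤ) : ZMod r)) = Pi.single j 1 := by
      funext i
      rw [rcV_pF]
      by_cases h : i = j
      · subst h
        simp
      · simp [Pi.single_eq_of_ne h]
    rw [e1, dotProduct_single, mul_one] at h2
    rw [Pi.smul_apply, smul_eq_mul, ← h2]
    simp only [Matrix.mulVec, dotProduct, redT]
    apply Finset.sum_congr rfl
    intro i _
    rw [mul_comm]
    rfl
  · intro s s'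
    rw [hchi, hchi]
    exact (ha _ _).1

end Gen

/-- Splitting an element of order `r * s`. -/
theorem split_order {G : Type*} [Group G] {x : G} {r s : ℕ} (hr : r.Prime) (hs : s.Prime) (hx : orderOf x = r * s) :
    orderOf (x ^ s) = r ∧ orderOf (x ^ r) = s := by
  constructor
  · have h := orderOf_pow_of_dvd (x := x) (n := s) hs.ne_zero (by rw [hx]; exact Dvd.intro_left r rfl)
    rw [h, hx]
    exact Nat.mul_div_cancel _ hs.pos
  · have h := orderOf_pow_of_dvd (x := x) (n := r) hr.ne_zero (by rw [hx]; exact Dvd.intro s rfl)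
    rw [h, hx]
    exact Nat.mul_div_cancel_left _ hr.pos

/-- The product of commuting elements of distinct prime orders has order the product. -/
theorem order_mul_of_commute {G : Type*} [Group G] {x y : G} {r s : ℕ} (hr : r.Prime) (hs : s.Prime) (hrs : r ≠ s)
    (hxy : x * y = y * x) (hx : orderOf x = r) (hy : orderOf y = s) : orderOf (x * y) = r * s := by
  have hc : Commute x y := hxy
  rw [hc.orderOf_mul_eq_mul_orderOf_of_coprime (by rw [hx, hy]; exact (Nat.coprime_primes hr hs).2 hrs), hx, hy]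

/-- Two distinct cyclotomic polynomials dividing a polynomial: the product divides. -/
theorem cyclo_mul_dvd {P : Polynomial ℤ} {k l : ℕ} (hk : 0 < k) (hl : 0 < l) (hkl : k ≠ l) (h1 : cyclotomic k ℤ ∣ P)
    (h2 : cyclotomic l ℤ ∣ P) : cyclotomic k ℤ * cyclotomic l ℤ ∣ P := by
  obtain ⟨g, rfl⟩ := h1
  apply mul_dvd_mul_left
  have hp : Prime (cyclotomic l ℤ) := (Polynomial.cyclotomic.irreducible hl).prime
  rcases hp.dvd_or_dvd h2 with h3 | h3
  · exfalso
    have h4 := (Polynomial.cyclotomic.irreducible hl).dvd_irreducible_iff_associated (Polynomial.cyclotomic.irreducible hk) |>.1 h3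
    have h5 := Polynomial.eq_of_monic_of_associated (Polynomial.cyclotomic.monic l ℤ) (Polynomial.cyclotomic.monic k ℤ) h4
    exact hkl (Polynomial.cyclotomic_injective h5).symm
  · exact h3

end Cfsg.Agent.Lib.F4P
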